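import Cfsg.Agent.H78.SpSlim.Basic

/-!
# Lifts of the slim amalgam: local relations
-/

set_option autoImplicit false

namespace Cfsg.Agent.H78.SpSlim

open Cfsg.Agent.H82.Sp Cfsg.Agent.H2

variable {m : ℕ} {F : Type*} [Field F] {Γ : Type*} [Group Γ]

/-- A homomorphism is injective on a subgroup. -/
def InjOnS (π : Γ →* Grp m F) (P : Subgroup Γ) : Prop := ∀ x ∈ P, π x = 1 → x = 1

theorem InjOnS.eq {π : Γ →* Grp m F} {P : Subgroup Γ} (h : InjOnS π P) {x y : Γ} (hx : x ∈ P) (hy : y ∈ P)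
    (e : π x = π y) : x = y :=
  mul_inv_eq_one.1 (h _ (mul_mem hx (inv_mem hy)) (by rw [map_mul, map_inv, e, mul_inv_cancel]))

theorem InjOnS.commute {π : Γ →* Grp m F} {P : Subgroup Γ} (h : InjOnS π P) {x y : Γ} (hx : x ∈ P) (hy : y ∈ P)
    (e : Commute (π x) (π y)) : Commute x y :=
  h.eq (mul_mem hx hy) (mul_mem hy hx) (by rw [map_mul, map_mul]; exact e.eq)

theorem InjOnS.mono {π : Γ →* Grp m F} {P Q : Subgroup Γ} (h : InjOnS π Q) (hle : P ≤ Q) : InjOnS π P :=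
  fun x hx => h x (hle hx)

/-- The stabiliser of a vector. -/
def fix (v : Vec m F) : Subgroup (Grp m F) where
  carrier := {g | act g v = v}
  one_mem' := act_one v
  mul_mem' := fun {g h} (hg : act g v = v) (hh : act h v = v) => show act (g * h) v = v by rw [act_mul, hh, hg]
  inv_mem' := fun {_} hg => act_inv_eq hg

theorem mem_fix {g : Grp m F} {v : Vec m F} : g ∈ fix v ↔ act g v = v := Iff.rfl

/-- The group of the second factor of the amalgam. -/
def FM (i j : Fin m) : Subgroup (Grp m F) := GI {i, j} ⊓ fix (ev i) ⊓ fix (ev j)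

theorem FM_fix {i j : Fin m} {g : Grp m F} (hg : g ∈ FM i j) (k : Fin m) : act g (ev k) = ev k := by
  obtain ⟨⟨h1, h2⟩, h3⟩ := hg
  by_cases hi : k = i
  · subst hi; exact h2
  by_cases hj : k = j
  · subst hj; exact h3
  exact (h1 k (by simp [hi, hj])).1

/-- Elements fixing the first half of the basis commute. -/
theorem commute_of_fix {g h : Grp m F} (hg : ∀ k, act g (ev k) = ev k) (hh : ∀ k, act h (ev k) = ev k) :
    Commute g h := by
  have key : ∀ {a b : Grp m F}, (∀ k, act a (ev k) = ev k) → (∀ k, act b (ev k) = ev k) → ∀ k,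
      act b (act a (fv k) - fv k) = act a (fv k) - fv k := by
    intro a b ha hb k
    have h0 : ∀ l, (act a (fv k) - fv k : Vec m F) (Sum.inr l) = 0 := fun l => by
      rw [← B_ev_right l (act a (fv k) - fv k), B_sub_left]
      conv_lhs => arg 1; rw [← ha l, B_act]
      rw [sub_self]
    conv_rhs => rw [vec_expand (act a (fv k) - fv k)]
    conv_lhs => rw [vec_expand (act a (fv k) - fv k), act_sum]
    exact Finset.sum_congr rfl fun l _ => by rw [h0, zero_smul, add_zero, act_smul, hb]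
  refine grp_ext_basis (fun k => by rw [act_mul, act_mul, hg, hh, hg]) fun k => ?_
  have k1 := key hg hh k
  have k2 := key hh hg k
  rw [act_sub] at k1 k2
  rw [act_mul, act_mul, sub_eq_iff_eq_add.1 k1, sub_eq_iff_eq_add.1 k2]
  abel

/-- The set of indices in an interval. -/
def Iv (a b : ℕ) : Set (Fin m) := {k | a ≤ (k : ℕ) ∧ (k : ℕ) < b}

/-- Lifts of the members of the slim amalgam. -/
structure Amal (π : Γ →* Grp m F) where
  A : Fin m → Subgroup Γ
  C : Fin m → Subgroup Γ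
  mapA : ∀ k, (A k).map π = GI {k}
  mapC : ∀ i j : Fin m, (j : ℕ) = i + 1 → (C i).map π = FM i j
  injAA : ∀ k l, InjOnS π (A k ⊔ A l)
  injCC : ∀ i k : Fin m, (i : ℕ) + 1 < m → (k : ℕ) + 1 < m → InjOnS π (C i ⊔ C k)
  injCA : ∀ i k : Fin m, (i : ℕ) + 1 < m → InjOnS π (C i ⊔ A k)

namespace Amal

variable {π : Γ →* Grp m F} (Am : Amal π)

theorem map_A_mem {k : Fin m} {x : Γ} (hx : x ∈ Am.A k) : π x ∈ GI {k} :=
  Am.mapA k ▸ Subgroup.mem_map_of_mem π hx

theorem exists_A {k : Fin m} {g : Grp m F} (hg : g ∈ GI {k}) : ∃ x ∈ Am.A k, π x = g := by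
  rwa [← Am.mapA k, Subgroup.mem_map] at hg

theorem map_C_mem {i j : Fin m} (h : (j : ℕ) = i + 1) {x : Γ} (hx : x ∈ Am.C i) : π x ∈ FM i j :=
  Am.mapC i j h ▸ Subgroup.mem_map_of_mem π hx

theorem exists_C {i j : Fin m} (h : (j : ℕ) = i + 1) {g : Grp m F} (hg : g ∈ FM i j) :
    ∃ x ∈ Am.C i, π x = g := by
  rwa [← Am.mapC i j h, Subgroup.mem_map] at hg

theorem commAA {k l : Fin m} (h : k ≠ l) {x y : Γ} (hx : x ∈ Am.A k) (hy : y ∈ Am.A l) : Commute x y :=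
  (Am.injAA k l).commute (Subgroup.mem_sup_left hx) (Subgroup.mem_sup_right hy)
    (GI_commute (Am.map_A_mem hx) (Am.map_A_mem hy) (by simpa using h))

theorem commCA {i j k : Fin m} (hij : (j : ℕ) = i + 1) (hi : k ≠ i) (hj : k ≠ j) {x y : Γ}
    (hx : x ∈ Am.C i) (hy : y ∈ Am.A k) : Commute x y :=
  (Am.injCA i k (hij ▸ j.isLt)).commute (Subgroup.mem_sup_left hx) (Subgroup.mem_sup_right hy)
    (GI_commute (Am.map_C_mem hij hx).1.1 (Am.map_A_mem hy) (by simp [hi, hj]))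

theorem commCC {i j k l : Fin m} (hij : (j : ℕ) = i + 1) (hkl : (l : ℕ) = k + 1) {x y : Γ}
    (hx : x ∈ Am.C i) (hy : y ∈ Am.C k) : Commute x y :=
  (Am.injCC i k (hij ▸ j.isLt) (hkl ▸ l.isLt)).commute (Subgroup.mem_sup_left hx) (Subgroup.mem_sup_right hy)
    (commute_of_fix (FM_fix (Am.map_C_mem hij hx)) (FM_fix (Am.map_C_mem hkl hy)))

/-- The lifts over an interval of indices. -/
def T (a b : ℕ) : Subgroup Γ :=
  (⨆ (k : Fin m) (_ : a ≤ (k : ℕ) ∧ (k : ℕ) < b), Am.A k) ⊔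
    ⨆ (k : Fin m) (_ : a ≤ (k : ℕ) ∧ (k : ℕ) + 1 < b), Am.C k

theorem A_le_T {a b : ℕ} {k : Fin m} (h : a ≤ (k : ℕ) ∧ (k : ℕ) < b) : Am.A k ≤ Am.T a b :=
  le_sup_of_le_left (le_iSup₂_of_le k h le_rfl)

theorem C_le_T {a b : ℕ} {k : Fin m} (h : a ≤ (k : ℕ) ∧ (k : ℕ) + 1 < b) : Am.C k ≤ Am.T a b :=
  le_sup_of_le_right (le_iSup₂_of_le k h le_rfl)

theorem T_le {a b : ℕ} {P : Subgroup Γ} (hA : ∀ k : Fin m, a ≤ (k : ℕ) → (k : ℕ) < b → Am.A k ≤ P)
    (hC : ∀ k : Fin m, a ≤ (k : ℕ) → (k : ℕ) + 1 < b → Am.C k ≤ P) : Am.T a b ≤ P :=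
  sup_le (iSup₂_le fun k h => hA k h.1 h.2) (iSup₂_le fun k h => hC k h.1 h.2)

/-- The lift of the long root group. -/
def U (i : Fin m) : Subgroup Γ := Am.A i ⊓ (fix (ev i)).comap π

/-- The lift of a vector stabiliser. -/
def Rg (i : Fin m) (b : ℕ) : Subgroup Γ :=
  Am.U i ⊔ (⨆ (_ : (i : ℕ) + 1 < b), Am.C i) ⊔ Am.T ((i : ℕ) + 1) b

/-- The induction hypothesis. -/
structure Good (i : Fin m) (b : ℕ) : Prop where
  inj : InjOnS π (Am.T i b)
  map : (Am.T i b).map π = GI (Iv i b)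
  stab : ∀ g ∈ Am.T i b, act (π g) (ev i) = ev i → g ∈ Am.Rg i b

end Amal

/-- The data of the induction step. -/
structure Step {π : Γ →* Grp m F} (Am : Amal π) where
  i : Fin m
  j : Fin m
  b : ℕ
  hij : (j : ℕ) = i + 1
  hjb : (j : ℕ) < b
  hbm : b ≤ m
  ih : Am.Good j b

namespace Step

variable {π : Γ →* Grp m F} {Am : Amal π} (S : Step Am)

/-- The vector being stabilised. -/
abbrev e : Vec m F := ev S.i

/-- The reference vector. -/
abbrev e' : Vec m F := ev S.j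

/-- The remaining indices. -/
abbrev I1 : Set (Fin m) := Iv S.j S.b

/-- The lifts over the remaining indices. -/
abbrev T1 : Subgroup Γ := Am.T S.j S.b

theorem notMem : S.i ∉ S.I1 := fun h => by have := h.1; have := S.hij; omega

theorem mem_j : S.j ∈ S.I1 := ⟨le_rfl, S.hjb⟩

theorem ne : S.i ≠ S.j := fun h => by have := S.hij; rw [h] at this; omega

theorem insert_Iv : (Iv S.i S.b : Set (Fin m)) = insert S.i S.I1 := by
  ext k
  have := S.hij
  have := S.hjb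
  simp only [Iv, Set.mem_ofPred_eq, Set.mem_insert_iff, Fin.ext_iff]
  omega

theorem Aj_le : Am.A S.j ≤ S.T1 := Am.A_le_T ⟨le_rfl, S.hjb⟩

theorem map_T1_mem {s : Γ} (hs : s ∈ S.T1) : π s ∈ GI S.I1 := S.ih.map ▸ Subgroup.mem_map_of_mem π hs

theorem exists_T1 {g : Grp m F} (hg : g ∈ GI S.I1) : ∃ s ∈ S.T1, π s = g := by
  rwa [← S.ih.map, Subgroup.mem_map] at hg

theorem T1_fix_e {s : Γ} (hs : s ∈ S.T1) : act (π s) S.e = S.e := ((S.map_T1_mem hs) S.i S.notMem).1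

theorem A_comm_T1 {h s : Γ} (hh : h ∈ Am.A S.i) (hs : s ∈ S.T1) : Commute h s := by
  have : S.T1 ≤ Subgroup.centralizer {h} := by
    refine Am.T_le (fun k hk _ x hx => ?_) fun k hk hk2 x hx => ?_
    · rw [Subgroup.mem_centralizer_singleton_iff]
      exact (Am.commAA (k := k) (l := S.i) (fun e => by have := S.hij; rw [e] at hk; omega) hx hh).eq
    · rw [Subgroup.mem_centralizer_singleton_iff]
      refine (Am.commCA (i := k) (j := ⟨k + 1, by have := S.hbm; omega⟩) rfl ?_ ?_ hx hh).eq <;>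
        (have := S.hij; simp only [ne_eq, Fin.ext_iff]; omega)
  exact ((Subgroup.mem_centralizer_singleton_iff.1 (this hs)).symm : h * s = s * h)

theorem injP0 : InjOnS π (Am.C S.i ⊔ Am.A S.i) := Am.injCA _ _ (S.hij ▸ S.j.isLt)

theorem injP1 : InjOnS π (Am.C S.i ⊔ Am.A S.j) := Am.injCA _ _ (S.hij ▸ S.j.isLt)

theorem mem_FM {g : Grp m F} (h1 : g ∈ GI {S.i, S.j}) (h2 : act g S.e = S.e) (h3 : act g S.e' = S.e') :
    g ∈ FM S.i S.j := ⟨⟨h1, h2⟩, h3⟩

theorem transv_ev_mem_FM {k : Fin m} (hk : k = S.i ∨ k = S.j) (t : F) : transv (ev k) t ∈ FM S.i S.j :=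
  S.mem_FM (transv_mem_GI (supp_ev (by simpa using hk)) t)
    (act_transv_of_orth t (B_ev_ev _ _)) (act_transv_of_orth t (B_ev_ev _ _))

theorem sg_mem_FM (t : F) : sg S.e (t • S.e') ∈ FM S.i S.j := by
  have h : B S.e (t • S.e') = 0 := by simp [B_ev_ev]
  refine S.mem_FM (sg_mem_GI (supp_ev (by simp)) ((supp_ev (by simp)).smul t)) ?_ ?_ <;>
    rw [act_sg h] <;> simp [B_ev_ev]

/-- The reference element. -/
noncomputable def X : Γ := (Am.exists_C S.hij (S.sg_mem_FM 1)).choose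

theorem X_mem : S.X ∈ Am.C S.i := (Am.exists_C S.hij (S.sg_mem_FM 1)).choose_spec.1

theorem map_X : π S.X = sg S.e S.e' := by
  exact (Am.exists_C S.hij (S.sg_mem_FM 1)).choose_spec.2.trans (by rw [one_smul])

theorem comm_X {s : Γ} (hs : s ∈ S.T1) (he : act (π s) S.e' = S.e') : Commute s S.X := by
  have hle : Am.Rg S.j S.b ≤ Subgroup.centralizer {S.X} := by
    refine sup_le (sup_le ?_ (iSup_le fun hj => ?_)) (Am.T_le (fun k hk _ => ?_) fun k hk hk2 => ?_) <;>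
      intro x hx <;> rw [Subgroup.mem_centralizer_singleton_iff]
    · obtain ⟨hx, hx2⟩ := hx
      obtain ⟨t, ht⟩ := eq_transv_of_fix (Am.map_A_mem hx) hx2
      refine (S.injP1.commute (Subgroup.mem_sup_right hx) (Subgroup.mem_sup_left S.X_mem) ?_).eq
      rw [ht]
      exact commute_of_fix (FM_fix (S.transv_ev_mem_FM (Or.inr rfl) t)) (FM_fix (Am.map_C_mem S.hij S.X_mem))
    · exact (Am.commCC (k := S.i) (j := ⟨S.j + 1, by have := S.hbm; omega⟩) rfl S.hij hx S.X_mem).eq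
    · refine (Am.commCA S.hij ?_ ?_ S.X_mem hx).eq.symm <;>
        (have := S.hij; simp only [ne_eq, Fin.ext_iff]; omega)
    · exact (Am.commCC (k := S.i) (j := ⟨k + 1, by have := S.hbm; omega⟩) rfl S.hij hx S.X_mem).eq
  exact Subgroup.mem_centralizer_singleton_iff.1 (hle (S.ih.stab s hs he))

open scoped Classical in
/-- The lifted Siegel element. -/
noncomputable def q (x : Vec m F) : Γ :=
  if h : ∃ s ∈ S.T1, act (π s) S.e' = x then h.choose * S.X * h.choose⁻¹ else 1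

theorem q_eq {x : Vec m F} {s : Γ} (hs : s ∈ S.T1) (hx : act (π s) S.e' = x) : S.q x = s * S.X * s⁻¹ := by
  have h : ∃ s ∈ S.T1, act (π s) S.e' = x := ⟨s, hs, hx⟩
  rw [q, dif_pos h]
  have hc : Commute (s⁻¹ * h.choose) S.X := S.comm_X (mul_mem (inv_mem hs) h.choose_spec.1)
    (by rw [map_mul, map_inv, act_mul, h.choose_spec.2]; exact act_inv_eq hx)
  calc h.choose * S.X * h.choose⁻¹ = s * ((s⁻¹ * h.choose) * S.X * (s⁻¹ * h.choose)⁻¹) * s⁻¹ := by group
    _ = s * S.X * s⁻¹ := by rw [hc.eq, mul_inv_cancel_right]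

theorem q_zero : S.q 0 = 1 := by
  rw [q, dif_neg]
  rintro ⟨s, -, hs⟩
  have := act_inv_eq hs
  rw [act_zero] at this
  exact ev_ne_zero S.j this.symm

theorem exists_rep {x : Vec m F} (hx : Supp S.I1 x) (h0 : x ≠ 0) : ∃ s ∈ S.T1, act (π s) S.e' = x := by
  obtain ⟨g, hg, hgx⟩ := exists_map_one (supp_ev S.mem_j) hx (ev_ne_zero S.j) h0
  obtain ⟨s, hs, rfl⟩ := S.exists_T1 hg
  exact ⟨s, hs, hgx⟩

theorem map_q {x : Vec m F} (hx : Supp S.I1 x) : π (S.q x) = sg S.e x := by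
  by_cases h0 : x = 0
  · rw [h0, q_zero, map_one, sg_zero]
  obtain ⟨s, hs, rfl⟩ := S.exists_rep hx h0
  rw [S.q_eq hs rfl, map_mul, map_mul, map_inv, S.map_X, conj_sg, S.T1_fix_e hs]

theorem q_conj {x : Vec m F} (hx : Supp S.I1 x) {s : Γ} (hs : s ∈ S.T1) :
    s * S.q x * s⁻¹ = S.q (act (π s) x) := by
  by_cases h0 : x = 0
  · rw [h0, act_zero, q_zero, mul_one, mul_inv_cancel]
  obtain ⟨s', hs', rfl⟩ := S.exists_rep hx h0
  rw [S.q_eq hs' rfl, S.q_eq (mul_mem hs hs') (by rw [map_mul, act_mul])]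
  group

theorem q_mem_P1 {x : Vec m F} (hx : Supp {S.j} x) : S.q x ∈ Am.C S.i ⊔ Am.A S.j := by
  by_cases h0 : x = 0
  · rw [h0, q_zero]; exact one_mem _
  obtain ⟨g, hg, hgx⟩ := exists_map_one (supp_ev (Set.mem_singleton S.j)) hx (ev_ne_zero S.j) h0
  obtain ⟨s, hs, rfl⟩ := Am.exists_A hg
  rw [S.q_eq (S.Aj_le hs) hgx]
  exact mul_mem (mul_mem (Subgroup.mem_sup_right hs) (Subgroup.mem_sup_left S.X_mem))
    (inv_mem (Subgroup.mem_sup_right hs))

theorem supp_j_I1 {x : Vec m F} (hx : Supp {S.j} x) : Supp S.I1 x :=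
  hx.mono (Set.singleton_subset_iff.2 S.mem_j)

theorem q_smul_mem_C (c : F) : S.q (c • S.e') ∈ Am.C S.i := by
  obtain ⟨x, hx, hπ⟩ := Am.exists_C S.hij (S.sg_mem_FM c)
  have hs : Supp {S.j} (c • S.e') := (supp_ev (Set.mem_singleton S.j)).smul c
  rwa [S.injP1.eq (S.q_mem_P1 hs) (Subgroup.mem_sup_left hx) (by rw [hπ, S.map_q (S.supp_j_I1 hs)])]

theorem U_le_C : Am.U S.i ≤ Am.C S.i := fun x hx => by
  obtain ⟨t, ht⟩ := eq_transv_of_fix (Am.map_A_mem hx.1) hx.2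
  obtain ⟨y, hy, hπ⟩ := Am.exists_C S.hij (S.transv_ev_mem_FM (Or.inl rfl) t)
  rwa [S.injP0.eq (Subgroup.mem_sup_right hx.1) (Subgroup.mem_sup_left hy) (by rw [ht, hπ])]

theorem exists_U (t : F) : ∃ u ∈ Am.U S.i, π u = transv S.e t := by
  obtain ⟨x, hx, hπ⟩ := Am.exists_A (transv_mem_GI (supp_ev (Set.mem_singleton S.i)) t)
  exact ⟨x, ⟨hx, show act (π x) S.e = S.e by rw [hπ]; exact act_transv_of_orth t (B_self _)⟩, hπ⟩

theorem U_comm_q {u : Γ} (hu : u ∈ Am.U S.i) (x : Vec m F) : Commute u (S.q x) := by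
  rw [q]
  split
  · next h =>
    have h1 : Commute u h.choose := S.A_comm_T1 hu.1 h.choose_spec.1
    exact (h1.mul_right (Am.commCC S.hij S.hij (S.U_le_C hu) S.X_mem)).mul_right h1.inv_right
  · exact Commute.one_right u

/-- The product law for a pair. -/
def Pl (u v : Vec m F) : Prop := (S.q (u + v))⁻¹ * (S.q u * S.q v) ∈ Am.U S.i

theorem pl_j {u v : Vec m F} (hu : Supp {S.j} u) (hv : Supp {S.j} v) : S.Pl u v := by
  obtain ⟨z, hz, hπ⟩ := S.exists_U (B v u)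
  have hd : ∀ {w : Vec m F}, Supp {S.j} w → B S.e w = 0 := fun hw =>
    B_eq_zero_of_disjoint (supp_ev (Set.mem_singleton S.i)) hw (by simpa using S.ne)
  show (S.q (u + v))⁻¹ * (S.q u * S.q v) ∈ Am.U S.i
  rwa [S.injP1.eq (mul_mem (inv_mem (S.q_mem_P1 (hu.add hv))) (mul_mem (S.q_mem_P1 hu) (S.q_mem_P1 hv)))
    (Subgroup.mem_sup_left (S.U_le_C hz)) (by
      rw [map_mul, map_mul, map_inv, S.map_q (S.supp_j_I1 hu), S.map_q (S.supp_j_I1 hv),
        S.map_q (S.supp_j_I1 (hu.add hv)), hπ, sg_mul (hd hu) (hd hv)]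
      group)]

theorem pl_conj {u v : Vec m F} (hu : Supp S.I1 u) (hv : Supp S.I1 v) (h : S.Pl u v) {s : Γ} (hs : s ∈ S.T1) :
    S.Pl (act (π s) u) (act (π s) v) := by
  show (S.q _)⁻¹ * (S.q _ * S.q _) ∈ Am.U S.i
  rw [← act_add, ← S.q_conj hu hs, ← S.q_conj hv hs, ← S.q_conj (hu.add hv) hs]
  have hc := S.A_comm_T1 h.1 hs
  have e1 : (s * S.q (u + v) * s⁻¹)⁻¹ * (s * S.q u * s⁻¹ * (s * S.q v * s⁻¹)) =
      (S.q (u + v))⁻¹ * (S.q u * S.q v) := by
    calc _ = s * ((S.q (u + v))⁻¹ * (S.q u * S.q v)) * s⁻¹ := by group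
      _ = _ := by rw [← hc.eq, mul_inv_cancel_right]
  rw [e1]; exact h

theorem pl (hF : ∃ a : F, a ≠ 0 ∧ a ≠ 1) {u v : Vec m F} (hu : Supp S.I1 u) (hv : Supp S.I1 v) : S.Pl u v := by
  have hne : ∀ {u v : Vec m F}, Supp S.I1 u → Supp S.I1 v → B u v ≠ 0 → S.Pl u v := by
    intro u v hu hv h
    obtain ⟨g, hg, h1, h2⟩ := exists_map_two (supp_ev S.mem_j) ((supp_fv S.mem_j).smul (-B u v)) hu hv
      (u := S.e') (v := (-B u v) • fv S.j) (by simpa using h) (by simp)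
    obtain ⟨s, hs, rfl⟩ := S.exists_T1 hg
    have := S.pl_conj (supp_ev S.mem_j) ((supp_fv S.mem_j).smul (-B u v))
      (S.pl_j (supp_ev (Set.mem_singleton S.j)) ((supp_fv (Set.mem_singleton S.j)).smul (-B u v))) hs
    rwa [h1, h2] at this
  by_cases hu0 : u = 0
  · simp [Pl, hu0, q_zero]
  by_cases hdep : ∃ c : F, v = c • u
  · obtain ⟨c, rfl⟩ := hdep
    obtain ⟨s, hs, rfl⟩ := S.exists_rep hu hu0
    rw [← act_smul]
    exact S.pl_conj (supp_ev S.mem_j) ((supp_ev S.mem_j).smul c)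
      (S.pl_j (supp_ev (Set.mem_singleton S.j)) ((supp_ev (Set.mem_singleton S.j)).smul c)) hs
  by_cases huv : B u v ≠ 0
  · exact hne hu hv huv
  push Not at huv
  obtain ⟨z1, hz1, h1⟩ := exists_partner_supp hu hu0
  obtain ⟨z0, hz0, h0⟩ := exists_partner_supp (hv.sub (hu.smul (B v z1)))
    (fun h => hdep ⟨B v z1, sub_eq_zero.1 h⟩)
  have h0' : B v z0 - B u z0 * B v z1 = 1 := by
    rw [← h0, B_sub_left, B_smul_left]; ring
  obtain ⟨a, ha0, ha1⟩ := hF
  set z : Vec m F := z1 + (-a - B v z1) • (z0 - B u z0 • z1) with hz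
  have hzs : Supp S.I1 z := hz1.add ((hz0.sub (hz1.smul _)).smul _)
  have huz : B u z = 1 := by simp [hz, h1]
  have hzv : B z v = a := by
    rw [B_swap, hz]
    simp only [B_add_right, B_smul_right, B_sub_right, h0']
    ring
  obtain ⟨p1, hp1, e1⟩ : ∃ p ∈ Am.U S.i, S.q u * S.q z = S.q (u + z) * p :=
    ⟨_, hne hu hzs (by simp [huz]), by group⟩
  obtain ⟨p2, hp2, e2⟩ : ∃ p ∈ Am.U S.i, S.q z * S.q (v - z) = S.q v * p :=
    ⟨_, by simpa [Pl] using hne hzs (hv.sub hzs) (by simpa [hzv] using ha0), by group⟩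
  obtain ⟨p3, hp3, e3⟩ : ∃ p ∈ Am.U S.i, S.q (u + z) * S.q (v - z) = S.q (u + v) * p :=
    ⟨_, by simpa [Pl] using hne (hu.add hzs) (hv.sub hzs) (by
      simp only [B_add_left, B_sub_right, huv, huz, hzv, B_self]
      intro h; apply ha1; linear_combination h), by group⟩
  show (S.q (u + v))⁻¹ * (S.q u * S.q v) ∈ Am.U S.i
  have hfin : S.q u * S.q v * p2 = S.q (u + v) * (p3 * p1) := by
    rw [mul_assoc, ← e2, ← mul_assoc, e1, mul_assoc, (S.U_comm_q hp1 (v - z)).eq, ← mul_assoc, e3, mul_assoc]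
  rw [show (S.q (u + v))⁻¹ * (S.q u * S.q v) = p3 * p1 * p2⁻¹ by
    rw [eq_mul_inv_iff_mul_eq, mul_assoc, hfin, inv_mul_cancel_left]]
  exact mul_mem (mul_mem hp3 hp1) (inv_mem hp2)

/-- The stabiliser lift. -/
abbrev R : Subgroup Γ := Am.Rg S.i S.b

theorem R_eq : S.R = Am.U S.i ⊔ Am.C S.i ⊔ S.T1 := by
  have hcond : (S.i : ℕ) + 1 < S.b := S.hij ▸ S.hjb
  rw [R, Amal.Rg, T1, iSup_pos hcond, S.hij]

theorem U_le_R : Am.U S.i ≤ S.R := by rw [S.R_eq]; exact le_sup_of_le_left le_sup_left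

theorem C_le_R : Am.C S.i ≤ S.R := by rw [S.R_eq]; exact le_sup_of_le_left le_sup_right

theorem T1_le_R : S.T1 ≤ S.R := by rw [S.R_eq]; exact le_sup_right

theorem q_mem_R (x : Vec m F) : S.q x ∈ S.R := by
  rw [q]
  split
  · next h =>
    exact mul_mem (mul_mem (S.T1_le_R h.choose_spec.1) (S.C_le_R S.X_mem)) (inv_mem (S.T1_le_R h.choose_spec.1))
  · exact one_mem _

variable (hF : ∃ a : F, a ≠ 0 ∧ a ≠ 1)

include hF

theorem R_form {g : Γ} (hg : g ∈ S.R) :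
    ∃ x, Supp S.I1 x ∧ ∃ u ∈ Am.U S.i, ∃ s ∈ S.T1, g = S.q x * u * s := by
  let RS : Subgroup Γ :=
    { carrier := {g | ∃ x, Supp S.I1 x ∧ ∃ u ∈ Am.U S.i, ∃ s ∈ S.T1, g = S.q x * u * s}
      one_mem' := ⟨0, Supp.zero, 1, one_mem _, 1, one_mem _, by simp [q_zero]⟩
      mul_mem' := by
        rintro _ _ ⟨x, hx, u, hu, s, hs, rfl⟩ ⟨y, hy, v, hv, t, ht, rfl⟩
        have hy' := act_supp (S.map_T1_mem hs) hy
        refine ⟨_, hx.add hy', (S.q (x + act (π s) y))⁻¹ * (S.q x * S.q (act (π s) y)) * (u * v),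
          mul_mem (S.pl hF hx hy') (mul_mem hu hv), s * t, mul_mem hs ht, ?_⟩
        have h1 : s * S.q y = S.q (act (π s) y) * s := mul_inv_eq_iff_eq_mul.1 (S.q_conj hy hs)
        have h2 := (S.A_comm_T1 hv.1 hs).eq
        have h3 := (S.U_comm_q hu (act (π s) y)).eq
        calc S.q x * u * s * (S.q y * v * t) = S.q x * u * (s * S.q y) * v * t := by group
          _ = S.q x * (u * S.q (act (π s) y)) * (s * v) * t := by rw [h1]; group
          _ = _ := by rw [h3, ← h2]; group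
      inv_mem' := by
        rintro _ ⟨x, hx, u, hu, s, hs, rfl⟩
        have hp : S.q x * S.q (-x) ∈ Am.U S.i := by simpa [Pl, q_zero] using S.pl hF hx hx.neg
        have hs' := inv_mem hs
        refine ⟨_, act_supp (S.map_T1_mem hs') hx.neg, u⁻¹ * (S.q x * S.q (-x))⁻¹, mul_mem (inv_mem hu)
          (inv_mem hp), s⁻¹, hs', ?_⟩
        set z := S.q x * S.q (-x) with hz
        rw [← S.q_conj hx.neg hs']
        have h2 : (S.q x)⁻¹ = S.q (-x) * z⁻¹ := by rw [hz]; group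
        have h3 := (S.U_comm_q (inv_mem hu) (-x)).eq
        have h4 := (S.A_comm_T1 (mul_mem (inv_mem hu) (inv_mem hp)).1 hs').eq
        calc (S.q x * u * s)⁻¹ = s⁻¹ * (u⁻¹ * (S.q x)⁻¹) := by group
          _ = s⁻¹ * ((u⁻¹ * S.q (-x)) * z⁻¹) := by rw [h2]; group
          _ = s⁻¹ * S.q (-x) * (u⁻¹ * z⁻¹) := by rw [h3]; group
          _ = _ := by rw [mul_assoc _ (u⁻¹ * z⁻¹) s⁻¹, h4]; group }
  have hle : S.R ≤ RS := by
    rw [S.R_eq]
    refine sup_le (sup_le (fun u hu => ⟨0, Supp.zero, u, hu, 1, one_mem _, by simp [q_zero]⟩) fun c hc => ?_)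
      (fun s hs => ⟨0, Supp.zero, 1, one_mem _, s, hs, by simp [q_zero]⟩)
    have hFM := Am.map_C_mem S.hij hc
    obtain ⟨w, t, hw, σ, hσ, heq⟩ := stab_decomp (I := {S.j}) (by simpa using S.ne)
      (by simpa using hFM.1.1) hFM.1.2
    have hew : B S.e w = 0 :=
      B_eq_zero_of_disjoint (supp_ev (Set.mem_singleton S.i)) hw (by simpa using S.ne)
    have hσe : Supp {S.j} (act σ S.e') := act_supp hσ (supp_ev rfl)
    have hσ' : B (act σ S.e') S.e = 0 :=
      B_eq_zero_of_disjoint hσe (supp_ev (Set.mem_singleton S.i)) (by simpa using S.ne.symm)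
    have h3 : act (π c) S.e' = S.e' := hFM.2
    rw [heq, act_mul, act_mul, act_transv_of_orth t hσ', act_sg hew, hσ', zero_smul, add_zero] at h3
    have hBw : B (act σ S.e') w = 0 := by
      have := congrFun h3 (.inl S.i)
      simp only [Pi.add_apply, Pi.smul_apply, (hσe S.i (by simpa using S.ne)).1, zero_add, smul_eq_mul] at this
      simpa [ev, S.ne] using this
    rw [hBw, zero_smul, add_zero] at h3
    rw [h3, B_ev_left, neg_eq_zero] at hBw
    have hwe : w = w (.inl S.j) • S.e' := funext fun q => by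
      rcases q with k | k <;> by_cases hk : k = S.j
      · subst hk; simp [ev]
      · simp [ev, hk, (hw k hk).1]
      · subst hk; simp [ev, hBw]
      · simp [ev, (hw k hk).2]
    obtain ⟨r, rfl⟩ := eq_transv_of_fix hσ h3
    obtain ⟨u, hu, hπu⟩ := S.exists_U t
    obtain ⟨x, hx, hπx⟩ := Am.exists_C S.hij (S.transv_ev_mem_FM (Or.inr rfl) r)
    obtain ⟨y, hy, hπy⟩ := Am.exists_A (transv_mem_GI (supp_ev (Set.mem_singleton S.j)) r)
    have hxy : x = y := S.injP1.eq (Subgroup.mem_sup_left hx) (Subgroup.mem_sup_right hy) (hπx.trans hπy.symm)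
    refine ⟨w, S.supp_j_I1 hw, u, hu, y, S.Aj_le hy, ?_⟩
    have hq : S.q w ∈ Am.C S.i := by rw [hwe]; exact S.q_smul_mem_C _
    exact S.injP0.eq (Subgroup.mem_sup_left hc)
      (Subgroup.mem_sup_left (mul_mem (mul_mem hq (S.U_le_C hu)) (hxy ▸ hx)))
      (by rw [map_mul, map_mul, S.map_q (S.supp_j_I1 hw), hπu, hπy, heq])
  exact hle hg

theorem inj_R : InjOnS π S.R := by
  intro g hg h1
  obtain ⟨x, hx, u, hu, s, hs, rfl⟩ := S.R_form hF hg
  obtain ⟨t, ht⟩ := eq_transv_of_fix (Am.map_A_mem hu.1) hu.2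
  rw [map_mul, map_mul, S.map_q hx, ht] at h1
  have hfx : act (sg S.e x * transv S.e t) (fv S.i) = fv S.i := by
    rw [eq_inv_of_mul_eq_one_left h1]
    exact ((inv_mem (S.map_T1_mem hs)) S.i S.notMem).2
  have hex : B S.e x = 0 := by rw [B_ev_left, (hx S.i S.notMem).2, neg_zero]
  have hfx0 : B (fv S.i) x = 0 := by rw [B_fv_left, (hx S.i S.notMem).1]
  rw [act_mul, act_transv, B_fv_ev, mul_one, act_sg hex] at hfx
  simp only [B_add_left, B_smul_left, B_fv_ev, B_self, hex, hfx0] at hfx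
  simp only [mul_zero, add_zero, zero_add, zero_smul, one_smul] at hfx
  rw [add_assoc, add_eq_left] at hfx
  have ht0 : t = 0 := by
    have := congrFun hfx (.inl S.i)
    simpa [ev, (hx S.i S.notMem).1] using this
  subst ht0
  rw [zero_smul, zero_add] at hfx
  subst hfx
  rw [sg_zero, transv_zero, one_mul, one_mul] at h1
  rw [transv_zero] at ht
  rw [S.ih.inj s hs h1, (Am.injAA S.i S.i) u (Subgroup.mem_sup_left hu.1) ht, q_zero, one_mul, one_mul]

omit hF in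
theorem exists_R {g : Grp m F} (hg : g ∈ GI (Iv S.i S.b)) (he : act g S.e = S.e) : ∃ r ∈ S.R, π r = g := by
  obtain ⟨w, t, hw, σ, hσ, rfl⟩ := stab_decomp S.notMem (S.insert_Iv ▸ hg) he
  obtain ⟨u, hu, hπu⟩ := S.exists_U t
  obtain ⟨s, hs, rfl⟩ := S.exists_T1 hσ
  exact ⟨S.q w * u * s, mul_mem (mul_mem (S.q_mem_R w) (S.U_le_R hu)) (S.T1_le_R hs),
    by rw [map_mul, map_mul, S.map_q hw, hπu]⟩

end Step

end Cfsg.Agent.H78.SpSlim
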