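import Cfsg.Agent.H82.Sp.Form

/-!
# Siegel elements and coordinate fixers in the symplectic group
-/

set_option autoImplicit false

namespace Cfsg.Agent.H78.SpSlim

open Cfsg.Agent.H82.Sp Cfsg.Agent.H2

variable {m : ℕ} {F : Type*} [Field F]

/-- The first half of the standard basis. -/
def ev (i : Fin m) : Vec m F := Pi.single (Sum.inl i) 1

/-- The second half of the standard basis. -/
def fv (i : Fin m) : Vec m F := Pi.single (Sum.inr i) 1

theorem B_ev_left (i : Fin m) (v : Vec m F) : B (ev i) v = -v (.inr i) := by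
  rw [B_eq, ev, sympForm_single_inl]

theorem B_fv_left (i : Fin m) (v : Vec m F) : B (fv i) v = v (.inl i) := by
  rw [B_eq, fv, sympForm_single_inr]

theorem B_ev_right (i : Fin m) (v : Vec m F) : B v (ev i) = v (.inr i) := by
  rw [B_swap, B_ev_left, neg_neg]

theorem B_fv_right (i : Fin m) (v : Vec m F) : B v (fv i) = -v (.inl i) := by
  rw [B_swap, B_fv_left]

theorem B_ev_ev (i k : Fin m) : B (ev i) (ev k : Vec m F) = 0 := by rw [B_ev_left]; simp [ev]

theorem act_inv_eq {g : Grp m F} {a b : Vec m F} (h : act g a = b) : act g⁻¹ b = a := by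
  rw [← h, act_inv_act]

@[simp] theorem B_fv_ev (i : Fin m) : B (fv i) (ev i : Vec m F) = 1 := by simp [B_fv_left, ev]

@[simp] theorem B_ev_fv (i : Fin m) : B (ev i) (fv i : Vec m F) = -1 := by rw [B_swap, B_fv_ev]

theorem ev_ne_zero (i : Fin m) : (ev i : Vec m F) ≠ 0 := fun h => by
  simpa [ev] using congrFun h (Sum.inl i)

theorem vec_expand (v : Vec m F) : v = ∑ k, (v (.inl k) • ev k + v (.inr k) • fv k) := by
  funext q
  rcases q with q | q <;>
    simp [ev, fv, Finset.sum_apply, Pi.single_apply]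

theorem act_sum {ι : Type*} (s : Finset ι) (g : Grp m F) (w : ι → Vec m F) :
    act g (∑ k ∈ s, w k) = ∑ k ∈ s, act g (w k) := by
  classical
  induction s using Finset.induction with
  | empty => simp
  | insert a s ha ih => rw [Finset.sum_insert ha, Finset.sum_insert ha, act_add, ih]

theorem grp_ext_basis {g h : Grp m F} (he : ∀ k, act g (ev k) = act h (ev k))
    (hf : ∀ k, act g (fv k) = act h (fv k)) : g = h := by
  refine grp_ext fun y => ?_
  rw [vec_expand y, act_sum, act_sum]
  exact Finset.sum_congr rfl fun k _ => by rw [act_add, act_add, act_smul, act_smul, act_smul, act_smul, he, hf]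

/-- Vectors with coordinates supported on a set of hyperbolic pairs. -/
def Supp (I : Set (Fin m)) (v : Vec m F) : Prop := ∀ k ∉ I, v (.inl k) = 0 ∧ v (.inr k) = 0

variable {I J : Set (Fin m)}

theorem Supp.zero : Supp I (0 : Vec m F) := fun _ _ => ⟨rfl, rfl⟩

theorem Supp.add {u v : Vec m F} (hu : Supp I u) (hv : Supp I v) : Supp I (u + v) := fun k hk => by
  simp [(hu k hk).1, (hu k hk).2, (hv k hk).1, (hv k hk).2]

theorem Supp.smul {v : Vec m F} (hv : Supp I v) (c : F) : Supp I (c • v) := fun k hk => by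
  simp [(hv k hk).1, (hv k hk).2]

theorem Supp.neg {v : Vec m F} (hv : Supp I v) : Supp I (-v) := fun k hk => by
  simp [(hv k hk).1, (hv k hk).2]

theorem Supp.sub {u v : Vec m F} (hu : Supp I u) (hv : Supp I v) : Supp I (u - v) := by
  rw [sub_eq_add_neg]; exact hu.add hv.neg

theorem Supp.mono {v : Vec m F} (h : I ⊆ J) (hv : Supp I v) : Supp J v := fun k hk => hv k fun hk' => hk (h hk')

theorem supp_ev {i : Fin m} (hi : i ∈ I) : Supp I (ev i : Vec m F) := fun k hk => by
  have : k ≠ i := fun h => hk (h ▸ hi)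
  simp [ev, this]

theorem supp_fv {i : Fin m} (hi : i ∈ I) : Supp I (fv i : Vec m F) := fun k hk => by
  have : k ≠ i := fun h => hk (h ▸ hi)
  simp [fv, this]

theorem supp_iff {v : Vec m F} : Supp I v ↔ ∀ k ∉ I, B (ev k) v = 0 ∧ B (fv k) v = 0 := by
  simp [Supp, B_ev_left, B_fv_left, and_comm]

theorem B_eq_zero_of_disjoint {u v : Vec m F} (hu : Supp I u) (hv : Supp J v) (h : Disjoint I J) : B u v = 0 := by
  rw [B_eq, sympForm_apply]
  refine Finset.sum_eq_zero fun k _ => ?_
  by_cases hk : k ∈ I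
  · have := hv k (Set.disjoint_left.1 h hk)
    simp [this.1, this.2]
  · simp [(hu k hk).1, (hu k hk).2]

/-- The isometries fixing all basis vectors outside a set of hyperbolic pairs. -/
def GI (I : Set (Fin m)) : Subgroup (Grp m F) where
  carrier := {g | ∀ k ∉ I, act g (ev k) = ev k ∧ act g (fv k) = fv k}
  one_mem' := fun _ _ => ⟨act_one _, act_one _⟩
  mul_mem' := fun {g h} hg hh k hk => ⟨by rw [act_mul, (hh k hk).1, (hg k hk).1],
    by rw [act_mul, (hh k hk).2, (hg k hk).2]⟩
  inv_mem' := fun {g} hg k hk => ⟨by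
    conv_lhs => arg 2; rw [← (hg k hk).1]
    exact act_inv_act g _, by
    conv_lhs => arg 2; rw [← (hg k hk).2]
    exact act_inv_act g _⟩

theorem mem_GI {g : Grp m F} : g ∈ GI I ↔ ∀ k ∉ I, act g (ev k) = ev k ∧ act g (fv k) = fv k := Iff.rfl

theorem GI_mono (h : I ⊆ J) : (GI I : Subgroup (Grp m F)) ≤ GI J := fun _ hg k hk => hg k fun hk' => hk (h hk')

theorem GI_univ : (GI Set.univ : Subgroup (Grp m F)) = ⊤ :=
  eq_top_iff.2 fun _ _ k hk => absurd (Set.mem_univ k) hk

theorem eq_one_of_mem_GI_empty {g : Grp m F} (hg : g ∈ GI (∅ : Set (Fin m))) : g = 1 :=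
  grp_ext_basis (fun k => by rw [act_one]; exact (hg k (Set.notMem_empty k)).1)
    (fun k => by rw [act_one]; exact (hg k (Set.notMem_empty k)).2)

theorem act_supp {g : Grp m F} (hg : g ∈ GI I) {v : Vec m F} (hv : Supp I v) : Supp I (act g v) := by
  rw [supp_iff] at hv ⊢
  intro k hk
  exact ⟨by rw [← (hg k hk).1, B_act]; exact (hv k hk).1, by rw [← (hg k hk).2, B_act]; exact (hv k hk).2⟩

theorem act_fix {g : Grp m F} (hg : g ∈ GI I) {v : Vec m F} (hv : Supp J v) (h : Disjoint I J) : act g v = v := by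
  conv_rhs => rw [vec_expand v]
  conv_lhs => rw [vec_expand v, act_sum]
  refine Finset.sum_congr rfl fun k _ => ?_
  by_cases hk : k ∈ I
  · have := hv k (Set.disjoint_left.1 h hk)
    simp [this.1, this.2]
  · rw [act_add, act_smul, act_smul, (hg k hk).1, (hg k hk).2]

theorem GI_commute {g h : Grp m F} (hg : g ∈ GI I) (hh : h ∈ GI J) (hd : Disjoint I J) : Commute g h := by
  have key : ∀ {v : Vec m F}, Supp I v → act (g * h) v = act (h * g) v := fun {v} hv => by
    rw [act_mul, act_mul, act_fix hh hv hd.symm, act_fix hh (act_supp hg hv) hd.symm]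
  refine grp_ext_basis (fun k => ?_) (fun k => ?_) <;> by_cases hk : k ∈ I
  · exact key (supp_ev hk)
  · rw [act_mul, act_mul, (hg k hk).1]
    exact act_fix hg (J := {q | q ∉ I}) (v := act h (ev k))
      (by
        by_cases hkJ : k ∈ J
        · exact (act_supp hh (supp_ev hkJ)).mono fun q hq hqI => Set.disjoint_left.1 hd hqI hq
        · rw [(hh k hkJ).1]; exact supp_ev hk)
      (Set.disjoint_left.2 fun q hq hq' => hq' hq)
  · exact key (supp_fv hk)
  · rw [act_mul, act_mul, (hg k hk).2]
    exact act_fix hg (J := {q | q ∉ I}) (v := act h (fv k))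
      (by
        by_cases hkJ : k ∈ J
        · exact (act_supp hh (supp_fv hkJ)).mono fun q hq hqI => Set.disjoint_left.1 hd hqI hq
        · rw [(hh k hkJ).2]; exact supp_fv hk)
      (Set.disjoint_left.2 fun q hq hq' => hq' hq)

theorem transv_mem_GI {v : Vec m F} (hv : Supp I v) (a : F) : transv v a ∈ GI I := fun k hk => by
  rw [supp_iff] at hv
  exact ⟨act_transv_of_orth a (hv k hk).1, act_transv_of_orth a (hv k hk).2⟩

/-- The Siegel element. -/
def sg (e x : Vec m F) : Grp m F := transv (x + e) 1 * transv x (-1) * transv e (-1)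

theorem act_sg {e x : Vec m F} (h : B e x = 0) (y : Vec m F) :
    act (sg e x) y = y + B y x • e + B y e • x := by
  have h' := B_eq_zero_symm h
  rw [sg, act_mul, act_mul, act_transv, act_transv, act_transv]
  simp only [B_add_left, B_add_right, B_smul_left, B_self, h, h']
  module

theorem sg_mem_GI {e x : Vec m F} (he : Supp I e) (hx : Supp I x) : sg e x ∈ GI I :=
  mul_mem (mul_mem (transv_mem_GI (hx.add he) _) (transv_mem_GI hx _)) (transv_mem_GI he _)

theorem sg_zero (e : Vec m F) : sg e 0 = 1 :=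
  grp_ext fun y => by rw [act_sg (B_zero_right e)]; simp

theorem conj_transv' (g : Grp m F) (v : Vec m F) (a : F) : g * transv v a * g⁻¹ = transv (act g v) a :=
  conj_transv g v a

theorem conj_sg (g : Grp m F) (e x : Vec m F) : g * sg e x * g⁻¹ = sg (act g e) (act g x) := by
  rw [sg, sg, ← act_add, ← conj_transv', ← conj_transv', ← conj_transv']
  group

theorem sg_mul {e u v : Vec m F} (hu : B e u = 0) (hv : B e v = 0) :
    sg e u * sg e v = sg e (u + v) * transv e (B v u) := by
  refine grp_ext fun y => ?_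
  have hu' := B_eq_zero_symm hu
  have hv' := B_eq_zero_symm hv
  have huv : B e (u + v) = 0 := by simp [hu, hv]
  rw [act_mul, act_sg hu, act_sg hv, act_mul, act_transv, act_sg huv]
  simp only [B_add_left, B_add_right, B_smul_left, B_smul_right, B_self, hu, hv, hu', hv']
  module

theorem sg_smul_left {e x : Vec m F} (h : B e x = 0) (c : F) : sg (c • e) x = sg e (c • x) := by
  refine grp_ext fun y => ?_
  rw [act_sg (by simp [h]), act_sg (by simp [h])]
  simp only [B_smul_right]
  module

theorem sg_neg_left {e x : Vec m F} (h : B e x = 0) : sg (-e) x = sg e (-x) := by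
  simpa using sg_smul_left h (-1)

theorem sg_split {e f x : Vec m F} (he : B e x = 0) (hf : B f x = 0) (hef : B f e = 1) (r : F) :
    sg (e + r • f) x = sg e x * transv x (-r) * sg f (r • x) := by
  refine grp_ext fun y => ?_
  have he' := B_eq_zero_symm he
  have hf' := B_eq_zero_symm hf
  rw [act_sg (by simp [he, hf]), act_mul, act_mul, act_sg (show B f (r • x) = 0 by simp [hf]), act_transv,
    act_sg he]
  simp only [B_add_left, B_add_right, B_smul_left, B_smul_right, B_self, he, hf, he', hf', hef]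
  module

/-- A transvection inside `GI I` moving one vector to another, along their difference. -/
theorem exists_transv_map {u v : Vec m F} (hu : Supp I u) (hv : Supp I v) (h : B u v ≠ 0) :
    ∃ g ∈ (GI I : Subgroup (Grp m F)), act g u = v ∧ ∀ w, B w (v - u) = 0 → act g w = w := by
  refine ⟨transv (v - u) (B u v)⁻¹, transv_mem_GI (hv.sub hu) _, ?_, fun w hw => act_transv_of_orth _ hw⟩
  rw [act_transv, B_sub_right, B_self, sub_zero, inv_mul_cancel₀ h, one_smul, add_sub_cancel]

theorem exists_partner_supp {u : Vec m F} (hu : Supp I u) (hu0 : u ≠ 0) : ∃ w, Supp I w ∧ B u w = 1 := by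
  obtain ⟨q, hq⟩ : ∃ q, u q ≠ 0 := Function.ne_iff.1 hu0
  rcases q with k | k
  · have hk : k ∈ I := by_contra fun hk => hq (hu k hk).1
    exact ⟨(-(u (.inl k))⁻¹) • fv k, (supp_fv hk).smul _, by rw [B_smul_right, B_fv_right]; field_simp⟩
  · have hk : k ∈ I := by_contra fun hk => hq (hu k hk).2
    exact ⟨(u (.inr k))⁻¹ • ev k, (supp_ev hk).smul _, by rw [B_smul_right, B_ev_right, inv_mul_cancel₀ hq]⟩

theorem exists_map_one {u v : Vec m F} (hu : Supp I u) (hv : Supp I v) (hu0 : u ≠ 0) (hv0 : v ≠ 0) :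
    ∃ g ∈ (GI I : Subgroup (Grp m F)), act g u = v := by
  obtain ⟨w, hw, h1, h2⟩ : ∃ w, Supp I w ∧ B u w ≠ 0 ∧ B w v ≠ 0 := by
    obtain ⟨p, hp, hp1⟩ := exists_partner_supp hu hu0
    obtain ⟨q, hq, hq1⟩ := exists_partner_supp hv hv0
    have hqv : B q v = -1 := by rw [B_swap, hq1]
    by_cases hpv : B p v = 0
    · by_cases huq : B u q = 0
      · exact ⟨p + q, hp.add hq, by simp [hp1, huq], by simp [hpv, hqv]⟩
      · exact ⟨q, hq, huq, by simp [hqv]⟩
    · exact ⟨p, hp, by simp [hp1], hpv⟩
  obtain ⟨g, hg, hgu, -⟩ := exists_transv_map hu hw h1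
  obtain ⟨g', hg', hgw, -⟩ := exists_transv_map hw hv h2
  exact ⟨g' * g, mul_mem hg' hg, by rw [act_mul, hgu, hgw]⟩

theorem exists_map_two {u v u' v' : Vec m F} (hu : Supp I u) (hv : Supp I v) (hu' : Supp I u') (hv' : Supp I v')
    (h : B u v ≠ 0) (hh : B u' v' = B u v) :
    ∃ g ∈ (GI I : Subgroup (Grp m F)), act g u = u' ∧ act g v = v' := by
  have hne : ∀ {p q : Vec m F}, B p q ≠ 0 → p ≠ 0 := fun h e => h (by rw [e, B_zero_left])
  obtain ⟨g, hg, hgu⟩ := exists_map_one hu hu' (hne h) (hne (hh.trans_ne h))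
  set w := act g v with hw
  have hws : Supp I w := act_supp hg hv
  have huw : B u' w = B u v := by rw [hw, ← hgu, B_act]
  suffices ∃ k ∈ (GI I : Subgroup (Grp m F)), act k u' = u' ∧ act k w = v' by
    obtain ⟨k, hk, hk1, hk2⟩ := this
    exact ⟨k * g, mul_mem hk hg, by rw [act_mul, hgu, hk1], by rw [act_mul, ← hw, hk2]⟩
  by_cases hwv : B w v' = 0
  · obtain ⟨k, hk, hk1, hk2⟩ := exists_transv_map hws (hu'.add hws) (by
      rw [B_add_right, B_self, add_zero, B_swap, huw, neg_ne_zero]; exact h)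
    obtain ⟨k', hk', hk1', hk2'⟩ := exists_transv_map (hu'.add hws) hv' (by
      rw [B_add_left, hwv, add_zero, hh]; exact h)
    refine ⟨k' * k, mul_mem hk' hk, ?_, by rw [act_mul, hk1, hk1']⟩
    rw [act_mul, hk2 u' (by simp), hk2' u' (by simp [hh, huw])]
  · obtain ⟨k, hk, hk1, hk2⟩ := exists_transv_map hws hv' hwv
    exact ⟨k, hk, hk2 u' (by simp [hh, huw]), hk1⟩

/-- The stabiliser of a basis vector. -/
theorem stab_decomp {i : Fin m} (hi : i ∉ I) {g : Grp m F} (hg : g ∈ GI (insert i I))
    (he : act g (ev i) = ev i) :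
    ∃ u t, Supp I u ∧ ∃ s ∈ (GI I : Subgroup (Grp m F)), g = sg (ev i) u * transv (ev i) t * s := by
  classical
  have hsup : Supp (insert i I) (act g (fv i)) := act_supp hg (supp_fv (Set.mem_insert i I))
  set v := act g (fv i) with hv
  set u : Vec m F := v - v (.inl i) • ev i - v (.inr i) • fv i with hu
  have hB : v (.inr i) = 1 := by
    have : B (ev i) v = B (ev i) (fv i : Vec m F) := by rw [hv]; nth_rewrite 1 [← he]; rw [B_act]
    rw [B_ev_left, B_ev_fv] at this
    exact neg_inj.1 this
  have hus : Supp I u := fun k hk => by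
    by_cases hki : k = i
    · subst hki; simp [hu, ev, fv]
    · have := hsup k (by simp [hki, hk])
      simp [hu, this.1, this.2, ev, fv, hki]
  have heu : B (ev i) u = 0 := by rw [B_ev_left, (hus i hi).2, neg_zero]
  have hfu : B (fv i) u = 0 := by rw [B_fv_left, (hus i hi).1]
  refine ⟨u, v (.inl i), hus, (sg (ev i) u * transv (ev i) (v (.inl i)))⁻¹ * g, ?_, by group⟩
  have hP : sg (ev i) u * transv (ev i) (v (.inl i)) ∈ GI (insert i I) :=
    mul_mem (sg_mem_GI (supp_ev (Set.mem_insert i I)) (hus.mono (Set.subset_insert i I)))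
      (transv_mem_GI (supp_ev (Set.mem_insert i I)) _)
  intro k hk
  by_cases hki : k = i
  · subst hki
    have h1 : act (sg (ev k) u * transv (ev k) (v (.inl k))) (ev k) = ev k := by
      rw [act_mul, act_transv, B_self, act_sg heu]; simp [heu]
    have h2 : act (sg (ev k) u * transv (ev k) (v (.inl k))) (fv k) = v := by
      rw [act_mul, act_transv, act_sg heu]
      simp only [B_fv_ev, B_add_left, B_smul_left, B_self, hfu, heu]
      rw [hu, hB]
      module
    refine ⟨?_, ?_⟩
    · rw [act_mul, he]; exact act_inv_eq h1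
    · rw [act_mul, ← hv]; exact act_inv_eq h2
  · exact mul_mem (inv_mem hP) hg k (by simp [hki, hk])

theorem eq_transv_of_fix {i : Fin m} {g : Grp m F} (hg : g ∈ GI {i}) (he : act g (ev i) = ev i) :
    ∃ t, g = transv (ev i) t := by
  obtain ⟨u, t, hu, s, hs, rfl⟩ := stab_decomp (I := ∅) (Set.notMem_empty i) (by simpa using hg) he
  have : u = 0 := funext fun q => by
    rcases q with k | k
    · exact (hu k (Set.notMem_empty k)).1
    · exact (hu k (Set.notMem_empty k)).2
  exact ⟨t, by rw [this, sg_zero, one_mul, eq_one_of_mem_GI_empty hs, mul_one]⟩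

end Cfsg.Agent.H78.SpSlim
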