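import Cfsg.Agent.H78.SpSlim.Amal

/-!
# The coset section and the induction step
-/

set_option autoImplicit false

namespace Cfsg.Agent.H78.SpSlim

open Cfsg.Agent.H82.Sp Cfsg.Agent.H2

variable {m : ℕ} {F : Type*} [Field F] {Γ : Type*} [Group Γ] {π : Γ →* Grp m F} {Am : Amal π}

namespace Step

variable (S : Step Am)

/-- All the indices of the step. -/
abbrev I : Set (Fin m) := Iv S.i S.b

/-- The opposite vector. -/
abbrev f : Vec m F := fv S.i

theorem mem_i : S.i ∈ S.I := ⟨le_rfl, by have := S.hij; have := S.hjb; omega⟩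

theorem I1_sub : S.I1 ⊆ S.I := by rw [I, S.insert_Iv]; exact Set.subset_insert _ _

theorem i_sub : ({S.i} : Set (Fin m)) ⊆ S.I := Set.singleton_subset_iff.2 S.mem_i

theorem disj : Disjoint ({S.i} : Set (Fin m)) S.I1 := Set.disjoint_singleton_left.2 S.notMem

/-- The component on the first plane. -/
def pr (v : Vec m F) : Vec m F := v (.inl S.i) • S.e + v (.inr S.i) • S.f

theorem supp_pr (v : Vec m F) : Supp {S.i} (S.pr v) :=
  ((supp_ev (Set.mem_singleton _)).smul _).add ((supp_fv (Set.mem_singleton _)).smul _)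

theorem supp_rest {v : Vec m F} (hv : Supp S.I v) : Supp S.I1 (v - S.pr v) := fun k hk => by
  by_cases hki : k = S.i
  · subst hki; simp [pr, ev, fv]
  · have := hv k (by simp only [I, S.insert_Iv, Set.mem_insert_iff, hki, false_or]; exact hk)
    simp [pr, ev, fv, hki, this.1, this.2]

theorem pr_eq {p x : Vec m F} (hp : Supp {S.i} p) (hx : Supp S.I1 x) : S.pr (p + x) = p := by
  funext q
  rcases q with k | k <;> by_cases hk : k = S.i
  · subst hk; simp [pr, ev, fv, (hx S.i S.notMem).1]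
  · simp [pr, ev, fv, hk, (hp k (by simpa using hk)).1]
  · subst hk; simp [pr, ev, fv, (hx S.i S.notMem).2]
  · simp [pr, ev, fv, hk, (hp k (by simpa using hk)).2]

theorem pr_A {g : Grp m F} (hg : g ∈ GI {S.i}) {v : Vec m F} (hv : Supp S.I v) :
    S.pr (act g v) = act g (S.pr v) ∧ act g v - S.pr (act g v) = v - S.pr v := by
  have h : act g v = act g (S.pr v) + (v - S.pr v) := by
    conv_lhs => rw [← add_sub_cancel (S.pr v) v, act_add]
    rw [act_fix hg (S.supp_rest hv) S.disj]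
  have h2 : S.pr (act g v) = act g (S.pr v) := by rw [h]; exact S.pr_eq (act_supp hg (S.supp_pr v)) (S.supp_rest hv)
  exact ⟨h2, by rw [h2, h, add_sub_cancel_left]⟩

theorem pr_T1 {g : Grp m F} (hg : g ∈ GI S.I1) {v : Vec m F} (hv : Supp S.I v) :
    S.pr (act g v) = S.pr v ∧ act g v - S.pr (act g v) = act g (v - S.pr v) := by
  have h : act g v = S.pr v + act g (v - S.pr v) := by
    conv_lhs => rw [← add_sub_cancel (S.pr v) v, act_add]
    rw [act_fix hg (S.supp_pr v) S.disj.symm]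
  have h2 : S.pr (act g v) = S.pr v := by rw [h]; exact S.pr_eq (S.supp_pr v) (act_supp hg (S.supp_rest hv))
  exact ⟨h2, by rw [h2, h, add_sub_cancel_left]⟩

/-- The vectors with a non-zero component on the first plane. -/
def D (v : Vec m F) : Prop := Supp S.I v ∧ S.pr v ≠ 0

theorem pr_ne {v : Vec m F} (h : v (.inl S.i) ≠ 0 ∨ v (.inr S.i) ≠ 0) : S.pr v ≠ 0 := fun h0 => by
  rcases h with h | h
  · exact h (by simpa [pr, ev, fv] using congrFun h0 (.inl S.i))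
  · exact h (by simpa [pr, ev, fv] using congrFun h0 (.inr S.i))

theorem inl_ne {v : Vec m F} (hv : S.D v) (h : v (.inr S.i) = 0) : v (.inl S.i) ≠ 0 := fun h0 =>
  hv.2 (by simp [pr, h, h0])

theorem supp_I1_of_pr {v : Vec m F} (hv : Supp S.I v) (h : S.pr v = 0) : Supp S.I1 v := by
  simpa [h] using S.supp_rest hv

theorem inr_eq (v : Vec m F) : v (.inr S.i) = B v S.e := (B_ev_right S.i v).symm

theorem inl_eq (v : Vec m F) : v (.inl S.i) = B S.f v := (B_fv_left S.i v).symm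

theorem eB {x : Vec m F} (hx : Supp S.I1 x) : B S.e x = 0 :=
  B_eq_zero_of_disjoint (supp_ev (Set.mem_singleton _)) hx S.disj

theorem fB {x : Vec m F} (hx : Supp S.I1 x) : B S.f x = 0 :=
  B_eq_zero_of_disjoint (supp_fv (Set.mem_singleton _)) hx S.disj

theorem map_A_I {h : Γ} (hh : h ∈ Am.A S.i) : π h ∈ GI S.I := GI_mono S.i_sub (Am.map_A_mem hh)

theorem map_T1_I {s : Γ} (hs : s ∈ S.T1) : π s ∈ GI S.I := GI_mono S.I1_sub (S.map_T1_mem hs)

theorem map_R_mem {r : Γ} (hr : r ∈ S.R) : π r ∈ GI S.I ∧ act (π r) S.e = S.e := by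
  have : S.R ≤ (GI S.I ⊓ fix S.e).comap π := by
    rw [S.R_eq]
    refine sup_le (sup_le (fun x hx => ⟨S.map_A_I hx.1, hx.2⟩) fun x hx => ?_)
      fun x hx => ⟨S.map_T1_I hx, S.T1_fix_e hx⟩
    have h := Am.map_C_mem S.hij hx
    exact ⟨GI_mono (by
      rintro k (rfl | rfl)
      · exact S.mem_i
      · exact S.I1_sub S.mem_j) h.1.1, h.1.2⟩
  exact this hr

theorem act_sg_q {x : Vec m F} (hx : Supp S.I1 x) (y : Vec m F) :
    act (π (S.q x)) y = y + B y x • S.e + B y S.e • x := by rw [S.map_q hx, act_sg (S.eB hx)]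

theorem exists_w0 : ∃ w ∈ Am.A S.i, act (π w) S.e = S.f ∧ act (π w) S.f = -S.e := by
  obtain ⟨g, hg, h1, h2⟩ := exists_map_two (u := S.e) (v := S.f) (u' := S.f) (v' := -S.e)
    (supp_ev (Set.mem_singleton S.i)) (supp_fv (Set.mem_singleton _)) (supp_fv (Set.mem_singleton _))
    (supp_ev (Set.mem_singleton _)).neg (by simp) (by simp)
  obtain ⟨w, hw, rfl⟩ := Am.exists_A hg
  exact ⟨w, hw, h1, h2⟩

/-- A lift of the Weyl element of the first plane. -/
noncomputable def w0 : Γ := S.exists_w0.choose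

theorem w0_mem : S.w0 ∈ Am.A S.i := S.exists_w0.choose_spec.1

theorem w0_e : act (π S.w0) S.e = S.f := S.exists_w0.choose_spec.2.1

theorem w0_f : act (π S.w0) S.f = -S.e := S.exists_w0.choose_spec.2.2

/-- The opposite Siegel lift. -/
noncomputable def q0 (x : Vec m F) : Γ := S.w0 * S.q x * S.w0⁻¹

theorem map_q0 {x : Vec m F} (hx : Supp S.I1 x) : π (S.q0 x) = sg S.f x := by
  rw [q0, map_mul, map_mul, map_inv, S.map_q hx, conj_sg, S.w0_e,
    act_fix (Am.map_A_mem S.w0_mem) hx S.disj]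

theorem q0_conj {x : Vec m F} (hx : Supp S.I1 x) {s : Γ} (hs : s ∈ S.T1) :
    s * S.q0 x * s⁻¹ = S.q0 (act (π s) x) := by
  have hc := S.A_comm_T1 S.w0_mem hs
  rw [q0, q0, ← S.q_conj hx hs]
  calc s * (S.w0 * S.q x * S.w0⁻¹) * s⁻¹ = (s * S.w0) * S.q x * (s * S.w0)⁻¹ := by group
    _ = (S.w0 * s) * S.q x * (S.w0 * s)⁻¹ := by rw [hc.eq]
    _ = _ := by group

theorem q0_smul_mem (c : F) : S.q0 (c • S.e') ∈ Am.C S.i ⊔ Am.A S.i :=
  mul_mem (mul_mem (Subgroup.mem_sup_right S.w0_mem) (Subgroup.mem_sup_left (S.q_smul_mem_C c)))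
    (inv_mem (Subgroup.mem_sup_right S.w0_mem))

/-- The element moving `e` to `e + x`. -/
noncomputable def Nn (x : Vec m F) : Γ := S.q0 (-x)

theorem Nn_zero : S.Nn 0 = 1 := by simp [Nn, q0, q_zero]

theorem act_Nn {x : Vec m F} (hx : Supp S.I1 x) : act (π (S.Nn x)) S.e = S.e + x := by
  rw [Nn, S.map_q0 hx.neg, act_sg (by rw [B_neg_right, S.fB hx, neg_zero])]
  simp [S.eB hx]

theorem map_P0 {z : Γ} (hz : z ∈ Am.C S.i ⊔ Am.A S.i) : π z ∈ GI {S.i, S.j} ∧ act (π z) S.e' = S.e' := by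
  have : Am.C S.i ⊔ Am.A S.i ≤ (GI {S.i, S.j} ⊓ fix S.e').comap π := by
    refine sup_le (fun x hx => ⟨(Am.map_C_mem S.hij hx).1.1, (Am.map_C_mem S.hij hx).2⟩) fun x hx =>
      ⟨GI_mono (by simp) (Am.map_A_mem hx),
        act_fix (Am.map_A_mem hx) (supp_ev (Set.mem_singleton S.j)) (by simpa using S.ne)⟩
  exact this hz

theorem Nn_conj_U {x : Vec m F} (hx : Supp S.I1 x) {u : Γ} (hu : u ∈ Am.U S.i) :
    (S.Nn x)⁻¹ * u * S.Nn x ∈ S.R := by
  by_cases h0 : x = 0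
  · rw [h0, Nn_zero, inv_one, one_mul, mul_one]; exact S.U_le_R hu
  obtain ⟨s, hs, rfl⟩ := S.exists_rep hx h0
  have he' : Supp S.I1 S.e' := supp_ev S.mem_j
  have hNs : S.Nn (act (π s) S.e') = s * S.Nn S.e' * s⁻¹ := by
    rw [Nn, Nn, S.q0_conj he'.neg hs, ← neg_one_smul F, ← act_smul, neg_one_smul]
  have hyP : S.Nn S.e' ∈ Am.C S.i ⊔ Am.A S.i := by
    rw [Nn, ← neg_one_smul F]; exact S.q0_smul_mem _
  set z := (S.Nn S.e')⁻¹ * u * S.Nn S.e' with hz
  have hzP : z ∈ Am.C S.i ⊔ Am.A S.i :=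
    mul_mem (mul_mem (inv_mem hyP) (Subgroup.mem_sup_right hu.1)) hyP
  have hze : act (π z) S.e = S.e := by
    rw [hz, map_mul, map_mul, map_inv, act_mul, act_mul, S.act_Nn he', act_add,
      act_fix (Am.map_A_mem hu.1) he' S.disj, show act (π u) S.e = S.e from hu.2]
    exact act_inv_eq (S.act_Nn he')
  obtain ⟨c, hc, hπc⟩ := Am.exists_C S.hij (S.mem_FM (S.map_P0 hzP).1 hze (S.map_P0 hzP).2)
  have hzC : z ∈ Am.C S.i := S.injP0.eq hzP (Subgroup.mem_sup_left hc) hπc.symm ▸ hc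
  have hcu : Commute u s := S.A_comm_T1 hu.1 hs
  rw [hNs, show (s * S.Nn S.e' * s⁻¹)⁻¹ * u * (s * S.Nn S.e' * s⁻¹) =
    s * ((S.Nn S.e')⁻¹ * (s⁻¹ * (u * s)) * S.Nn S.e') * s⁻¹ by group, hcu.eq, inv_mul_cancel_left]
  exact mul_mem (mul_mem (S.T1_le_R hs) (S.C_le_R hzC)) (inv_mem (S.T1_le_R hs))

open scoped Classical in
/-- The coset of a vector off the complement of the first plane. -/
noncomputable def c0 (v : Vec m F) : Γ ⧸ S.R :=
  if h : ∃ k ∈ Am.A S.i, act (π k) S.e = S.pr v then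
    ((h.choose * S.Nn (v - S.pr v) : Γ) : Γ ⧸ S.R)
  else ((1 : Γ) : Γ ⧸ S.R)

theorem c0_eq {v : Vec m F} (hv : Supp S.I v) {k : Γ} (hk : k ∈ Am.A S.i) (hke : act (π k) S.e = S.pr v) :
    S.c0 v = ((k * S.Nn (v - S.pr v) : Γ) : Γ ⧸ S.R) := by
  have h : ∃ k ∈ Am.A S.i, act (π k) S.e = S.pr v := ⟨k, hk, hke⟩
  rw [c0, dif_pos h, QuotientGroup.eq]
  rw [show (h.choose * S.Nn (v - S.pr v))⁻¹ * (k * S.Nn (v - S.pr v)) =
    (S.Nn (v - S.pr v))⁻¹ * (h.choose⁻¹ * k) * S.Nn (v - S.pr v) by group]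
  refine S.Nn_conj_U (S.supp_rest hv) ⟨(Am.A S.i).mul_mem ((Am.A S.i).inv_mem h.choose_spec.1) hk, ?_⟩
  show act (π (h.choose⁻¹ * k)) S.e = S.e
  rw [map_mul, map_inv, act_mul, hke]
  exact act_inv_eq h.choose_spec.2

theorem exists_k {v : Vec m F} (hv : S.D v) : ∃ k ∈ Am.A S.i, act (π k) S.e = S.pr v := by
  obtain ⟨g, hg, hge⟩ := exists_map_one (supp_ev (Set.mem_singleton S.i)) (S.supp_pr v) (ev_ne_zero _) hv.2
  obtain ⟨k, hk, rfl⟩ := Am.exists_A hg
  exact ⟨k, hk, hge⟩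

theorem D_e : S.D S.e := ⟨supp_ev S.mem_i, S.pr_ne (Or.inl (by simp [ev]))⟩

theorem c0_e : S.c0 S.e = ((1 : Γ) : Γ ⧸ S.R) := by
  have h : S.pr S.e = S.e := by simpa using S.pr_eq (supp_ev (Set.mem_singleton S.i)) Supp.zero
  rw [S.c0_eq (supp_ev S.mem_i) (one_mem _) (by rw [map_one, act_one, h]), h, sub_self, Nn_zero, one_mul]

/-- Equivariance at one vector. -/
def Eqv (g : Γ) (v : Vec m F) : Prop := S.D (act (π g) v) ∧ S.c0 (act (π g) v) = g • S.c0 v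

theorem Eqv.comp {g h : Γ} {v : Vec m F} (hh : S.Eqv h v) (hg : S.Eqv g (act (π h) v)) : S.Eqv (g * h) v := by
  unfold Eqv at *
  rw [map_mul, act_mul]
  exact ⟨hg.1, by rw [hg.2, hh.2, mul_smul]⟩

theorem eqv_A {h : Γ} (hh : h ∈ Am.A S.i) {v : Vec m F} (hv : S.D v) : S.Eqv h v := by
  obtain ⟨h1, h2⟩ := S.pr_A (Am.map_A_mem hh) hv.1
  have hD : S.D (act (π h) v) := by
    refine ⟨act_supp (S.map_A_I hh) hv.1, ?_⟩
    rw [h1]
    intro h0
    have := act_inv_eq h0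
    rw [act_zero] at this
    exact hv.2 this.symm
  obtain ⟨k, hk, hke⟩ := S.exists_k hv
  refine ⟨hD, ?_⟩
  rw [S.c0_eq hD.1 (mul_mem hh hk) (by rw [map_mul, act_mul, hke, h1]), h2, S.c0_eq hv.1 hk hke,
    MulAction.Quotient.smul_coe, smul_eq_mul, mul_assoc]

theorem eqv_T1 {s : Γ} (hs : s ∈ S.T1) {v : Vec m F} (hv : S.D v) : S.Eqv s v := by
  obtain ⟨h1, h2⟩ := S.pr_T1 (S.map_T1_mem hs) hv.1
  have hD : S.D (act (π s) v) := ⟨act_supp (S.map_T1_I hs) hv.1, h1 ▸ hv.2⟩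
  obtain ⟨k, hk, hke⟩ := S.exists_k hv
  refine ⟨hD, ?_⟩
  rw [S.c0_eq hD.1 hk (by rw [hke, h1]), h2, S.c0_eq hv.1 hk hke, MulAction.Quotient.smul_coe, smul_eq_mul]
  have hn : S.Nn (act (π s) (v - S.pr v)) = s * S.Nn (v - S.pr v) * s⁻¹ := by
    rw [Nn, Nn, S.q0_conj (S.supp_rest hv.1).neg hs, ← neg_one_smul F, ← act_smul, neg_one_smul]
  rw [hn, QuotientGroup.eq]
  have hc := S.A_comm_T1 hk hs
  rw [show (k * (s * S.Nn (v - S.pr v) * s⁻¹))⁻¹ * (s * (k * S.Nn (v - S.pr v))) =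
    s * ((S.Nn (v - S.pr v))⁻¹ * ((k * s)⁻¹ * (s * k)) * S.Nn (v - S.pr v)) by group, hc.eq,
    inv_mul_cancel, mul_one, inv_mul_cancel, mul_one]
  exact S.T1_le_R hs

theorem torus_q {k : Γ} (hk : k ∈ Am.A S.i) {μ : F} (hke : act (π k) S.e = μ • S.e) {x : Vec m F}
    (hx : Supp S.I1 x) : k * S.q x * k⁻¹ = S.q (μ • x) := by
  by_cases h0 : x = 0
  · rw [h0, smul_zero, q_zero, mul_one, mul_inv_cancel]
  obtain ⟨s, hs, rfl⟩ := S.exists_rep hx h0
  have he' : Supp S.I1 S.e' := supp_ev S.mem_j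
  have hX : k * S.X * k⁻¹ = S.q (μ • S.e') :=
    S.injP0.eq (mul_mem (mul_mem (Subgroup.mem_sup_right hk) (Subgroup.mem_sup_left S.X_mem))
      (inv_mem (Subgroup.mem_sup_right hk))) (Subgroup.mem_sup_left (S.q_smul_mem_C μ)) (by
      rw [map_mul, map_mul, map_inv, S.map_X, conj_sg, hke, act_fix (Am.map_A_mem hk) he' S.disj,
        sg_smul_left (S.eB he'), S.map_q (he'.smul μ)])
  have hc := S.A_comm_T1 hk hs
  rw [← act_smul, ← S.q_conj (he'.smul μ) hs, ← hX, S.q_eq hs rfl]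
  calc k * (s * S.X * s⁻¹) * k⁻¹ = (k * s) * S.X * (k * s)⁻¹ := by group
    _ = (s * k) * S.X * (s * k)⁻¹ := by rw [hc.eq]
    _ = _ := by group

theorem exists_hbeta {ψ : F} (hψ : ψ ≠ 0) :
    ∃ k ∈ Am.A S.i, act (π k) S.e = ψ • S.f ∧ act (π k) S.f = (-ψ⁻¹) • S.e := by
  obtain ⟨g, hg, h1, h2⟩ := exists_map_two (u := S.e) (v := S.f) (u' := ψ • S.f) (v' := (-ψ⁻¹) • S.e)
    (supp_ev (Set.mem_singleton S.i)) (supp_fv (Set.mem_singleton _)) ((supp_fv (Set.mem_singleton _)).smul _)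
    ((supp_ev (Set.mem_singleton _)).smul _) (by simp) (by simp [hψ])
  obtain ⟨w, hw, rfl⟩ := Am.exists_A hg
  exact ⟨w, hw, h1, h2⟩

variable (hF : ∃ a : F, a ≠ 0 ∧ a ≠ 1)

include hF

theorem beta {v : Vec m F} (hv : Supp S.I v) {ψ : F} (hψ : v (.inr S.i) = ψ) (hψ0 : ψ ≠ 0) {k : Γ}
    (hk : k ∈ Am.A S.i) (hke : act (π k) S.e = ψ • S.f) (hkf : act (π k) S.f = (-ψ⁻¹) • S.e) {ρ : Γ}
    (hρ : ρ ∈ S.R) (hρv : act (π ρ) (ψ • S.f) = v) : S.c0 v = ((ρ * k : Γ) : Γ ⧸ S.R) := by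
  set x := v - S.pr v with hx
  have hxs : Supp S.I1 x := S.supp_rest hv
  obtain ⟨u, hu, hπu⟩ := S.exists_U (v (.inl S.i) * ψ⁻¹)
  have huke : act (π (u * k)) S.e = S.pr v := by
    rw [map_mul, act_mul, hke, act_smul, hπu, act_transv, B_fv_ev, mul_one, smul_add, smul_smul,
      mul_left_comm, mul_inv_cancel₀ hψ0, mul_one, pr, hψ, add_comm]
  have hconj : k * S.Nn x * k⁻¹ = S.q (ψ⁻¹ • x) := by
    have hkw : act (π (k * S.w0)) S.e = (-ψ⁻¹) • S.e := by rw [map_mul, act_mul, S.w0_e, hkf]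
    rw [show ψ⁻¹ • x = (-ψ⁻¹) • (-x) by simp, ← S.torus_q (mul_mem hk S.w0_mem) hkw hxs.neg, Nn, q0]
    group
  have hρ0 : u * S.q (ψ⁻¹ • x) ∈ S.R := mul_mem (S.U_le_R hu) (S.q_mem_R _)
  have hρ0v : act (π (u * S.q (ψ⁻¹ • x))) (ψ • S.f) = v := by
    have hux : act (π u) x = x := act_fix (Am.map_A_mem hu.1) hxs S.disj
    rw [map_mul, act_mul, S.act_sg_q (hxs.smul _), B_smul_left, B_smul_left, B_smul_right, S.fB hxs,
      B_fv_ev, mul_zero, mul_zero, zero_smul, add_zero, mul_one, smul_smul, mul_inv_cancel₀ hψ0, one_smul,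
      act_add, hux, ← hke, ← act_mul, ← map_mul, huke, hx, add_sub_cancel]
  rw [S.c0_eq hv (mul_mem hu.1 hk) huke, ← hx,
    show u * k * S.Nn x = u * (k * S.Nn x * k⁻¹) * k by group, hconj, QuotientGroup.eq]
  set d := (u * S.q (ψ⁻¹ • x))⁻¹ * ρ with hd
  have hdR : d ∈ S.R := mul_mem (inv_mem hρ0) hρ
  have hdf : act (π d) S.f = S.f := by
    have : act (π d) (ψ • S.f) = ψ • S.f := by
      rw [hd, map_mul, map_inv, act_mul, hρv]; exact act_inv_eq hρ0v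
    rw [act_smul] at this
    exact smul_right_injective _ hψ0 this
  have hdI1 : π d ∈ GI S.I1 := fun l hl => by
    by_cases hli : l = S.i
    · subst hli; exact ⟨(S.map_R_mem hdR).2, hdf⟩
    · exact (S.map_R_mem hdR).1 l (by simp only [I, S.insert_Iv, Set.mem_insert_iff, hli, false_or]; exact hl)
  obtain ⟨s, hs, hπs⟩ := S.exists_T1 hdI1
  have hds : d = s := (S.inj_R hF).eq hdR (S.T1_le_R hs) hπs.symm
  rw [show (u * S.q (ψ⁻¹ • x) * k)⁻¹ * (ρ * k) = k⁻¹ * (d * k) by rw [hd]; group, hds,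
    ← (S.A_comm_T1 hk hs).eq, inv_mul_cancel_left]
  exact S.T1_le_R hs

omit hF in
theorem exists_rho {v : Vec m F} (hv : Supp S.I v) (hψ : v (.inr S.i) ≠ 0) :
    ∃ ρ ∈ S.R, act (π ρ) (v (.inr S.i) • S.f) = v := by
  obtain ⟨g, hg, hge⟩ : ∃ g ∈ (GI S.I : Subgroup (Grp m F)), act g S.e = S.e ∧
      act g (v (.inr S.i) • S.f) = v := by
    refine exists_map_two (supp_ev S.mem_i) ((supp_fv S.mem_i).smul _) (supp_ev S.mem_i) hv ?_ ?_ <;>
      simp [B_ev_left, fv, hψ]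
  obtain ⟨r, hr, rfl⟩ := S.exists_R hg hge.1
  exact ⟨r, hr, hge.2⟩

theorem eqv_R_inr {r : Γ} (hr : r ∈ S.R) {v : Vec m F} (hv : Supp S.I v) (hψ : v (.inr S.i) ≠ 0) :
    S.Eqv r v := by
  have hψ' : act (π r) v (.inr S.i) = v (.inr S.i) := by
    rw [S.inr_eq (act (π r) v), S.inr_eq v]
    conv_lhs => arg 2; rw [← (S.map_R_mem hr).2]
    rw [B_act]
  have hs := act_supp (S.map_R_mem hr).1 hv
  obtain ⟨ρ, hρ, hρv⟩ := S.exists_rho hv hψ
  obtain ⟨k, hk, hke, hkf⟩ := S.exists_hbeta hψ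
  refine ⟨⟨hs, S.pr_ne (Or.inr (hψ'.symm ▸ hψ))⟩, ?_⟩
  rw [S.beta hF hv rfl hψ hk hke hkf hρ hρv,
    S.beta hF hs hψ' hψ hk hke hkf (mul_mem hr hρ) (by rw [map_mul, act_mul, hρv]),
    MulAction.Quotient.smul_coe, smul_eq_mul, mul_assoc]

theorem eqv_R0 {r : Γ} (hr : r ∈ S.R) {v : Vec m F} (hv : Supp S.I v) (hφ : v (.inl S.i) ≠ 0) :
    S.Eqv (S.w0 * r * S.w0⁻¹) v := by
  have hw := inv_mem S.w0_mem
  have hD : S.D v := ⟨hv, S.pr_ne (Or.inl hφ)⟩
  have h1 := S.eqv_A hw hD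
  have hψ : act (π S.w0⁻¹) v (.inr S.i) ≠ 0 := by
    rw [S.inr_eq (act (π S.w0⁻¹) v), map_inv, ← B_act (π S.w0), act_act_inv, S.w0_e, B_fv_right]
    exact neg_ne_zero.2 hφ
  have h2 := h1.comp S (S.eqv_R_inr hF hr h1.1.1 hψ)
  rw [mul_assoc]
  exact h2.comp S (S.eqv_A S.w0_mem h2.1)

omit hF in
/-- The identity behind the equivariance. -/
theorem split_q (r : F) {L : Γ} (hL : L ∈ Am.A S.i) (hπL : π L = transv S.f (-r)) {x : Vec m F}
    (hx : Supp S.I1 x) :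
    ∃ τ ∈ S.T1, π τ = transv x (-r) ∧ L * S.q x * L⁻¹ = S.q x * τ * S.q0 (r • x) := by
  have hLe : act (π L) S.e = S.e + r • S.f := by rw [hπL, act_transv, B_ev_fv]; simp
  by_cases h0 : x = 0
  · refine ⟨1, one_mem _, ?_, by simp [h0, q_zero, q0]⟩
    rw [map_one, h0]
    exact grp_ext fun y => by rw [act_transv, smul_zero, add_zero, act_one]
  have he' : Supp S.I1 S.e' := supp_ev S.mem_j
  obtain ⟨t, ht, hπt⟩ := Am.exists_A (transv_mem_GI (supp_ev (Set.mem_singleton S.j)) (-r))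
  have htC : t ∈ Am.C S.i := by
    obtain ⟨y, hy, hπy⟩ := Am.exists_C S.hij (S.transv_ev_mem_FM (Or.inr rfl) (-r))
    rwa [S.injP1.eq (Subgroup.mem_sup_right ht) (Subgroup.mem_sup_left hy) (hπt.trans hπy.symm)]
  have hq1 : S.q S.e' ∈ Am.C S.i := by simpa using S.q_smul_mem_C 1
  have hbase : L * S.q S.e' * L⁻¹ = S.q S.e' * t * S.q0 (r • S.e') :=
    S.injP0.eq (mul_mem (mul_mem (Subgroup.mem_sup_right hL) (Subgroup.mem_sup_left hq1))
      (inv_mem (Subgroup.mem_sup_right hL)))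
      (mul_mem (mul_mem (Subgroup.mem_sup_left hq1) (Subgroup.mem_sup_left htC)) (S.q0_smul_mem r))
      (by rw [map_mul, map_mul, map_inv, S.map_q he', conj_sg, hLe,
            act_fix (Am.map_A_mem hL) he' S.disj, map_mul, map_mul, S.map_q he', hπt, S.map_q0 (he'.smul r),
            sg_split (S.eB he') (S.fB he') (B_fv_ev _)])
  obtain ⟨s, hs, rfl⟩ := S.exists_rep hx h0
  refine ⟨s * t * s⁻¹, mul_mem (mul_mem hs (S.Aj_le ht)) (inv_mem hs), ?_, ?_⟩
  · rw [map_mul, map_mul, map_inv, hπt, conj_transv']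
  · have hc := S.A_comm_T1 hL hs
    rw [← act_smul, ← S.q0_conj (he'.smul r) hs, ← S.q_conj he' hs]
    calc L * (s * S.q S.e' * s⁻¹) * L⁻¹ = (L * s) * S.q S.e' * (L * s)⁻¹ := by group
      _ = (s * L) * S.q S.e' * (s * L)⁻¹ := by rw [hc.eq]
      _ = s * (L * S.q S.e' * L⁻¹) * s⁻¹ := by group
      _ = _ := by rw [hbase]; group

theorem eqv_q {x v : Vec m F} (hx : Supp S.I1 x) (hv : S.D v) (hψ : v (.inr S.i) = 0)
    (hqv : S.D (act (π (S.q x)) v)) : S.Eqv (S.q x) v := by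
  obtain ⟨L, hL, hπL⟩ := Am.exists_A (transv_mem_GI (supp_fv (Set.mem_singleton S.i)) (-(1 : F)))
  obtain ⟨τ, hτ, hπτ, hid⟩ := S.split_q 1 hL hπL hx
  rw [one_smul] at hid
  have hqeq : S.q x = L * (S.q x * (L⁻¹ * ((S.q0 x)⁻¹ * τ⁻¹))) := by
    calc S.q x = S.q x * τ * S.q0 x * ((S.q0 x)⁻¹ * τ⁻¹) := by group
      _ = _ := by rw [← hid]; group
  have hτ' := inv_mem hτ
  have h1 := S.eqv_T1 hτ' hv
  set v1 := act (π τ⁻¹) v with hv1
  have hpr := (S.pr_T1 (S.map_T1_mem hτ') hv.1).1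
  rw [← hv1] at hpr
  have hφ1 : v1 (.inl S.i) = v (.inl S.i) := by simpa [pr, ev, fv] using congrFun hpr (.inl S.i)
  have hψ1 : v1 (.inr S.i) = 0 := by rw [← hψ]; simpa [pr, ev, fv] using congrFun hpr (.inr S.i)
  have hBx : B v1 x = B v x := by
    have : act (π τ) x = x := by rw [hπτ]; exact act_transv_of_orth _ (B_self x)
    rw [hv1, ← B_act (π τ⁻¹) v x]
    congr 1
    rw [map_inv]; exact (act_inv_eq this).symm
  have hq0 : (S.q0 x)⁻¹ = S.w0 * (S.q x)⁻¹ * S.w0⁻¹ := by rw [q0]; group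
  have h2 : S.Eqv (S.q0 x)⁻¹ v1 := hq0 ▸
    S.eqv_R0 hF (inv_mem (S.q_mem_R x)) h1.1.1 (hφ1 ▸ S.inl_ne hv hψ)
  set v2 := act (π (S.q0 x)⁻¹) v1 with hv2
  have h3 := S.eqv_A (inv_mem hL) h2.1
  have hfv2 : B v2 S.f = B v1 S.f := by
    have : act (π (S.q0 x)) S.f = S.f := by rw [S.map_q0 hx, act_sg (S.fB hx)]; simp [S.fB hx]
    rw [hv2, map_inv, ← B_act (π (S.q0 x))⁻¹ v1 S.f, act_inv_eq this]
  have hev2 : B v2 S.e = B v1 S.e - B v1 x := by
    rw [hv2, ← B_act (π (S.q0 x)), map_inv, act_act_inv, S.map_q0 hx, act_sg (S.fB hx)]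
    simp [S.eB hx, sub_eq_add_neg]
  set v3 := act (π L⁻¹) v2 with hv3
  have hψ3 : v3 (.inr S.i) ≠ 0 := by
    have hLe : act (π L) S.e = S.e + S.f := by rw [hπL, act_transv, B_ev_fv]; simp
    have hfin := S.inl_ne hqv (by
      rw [S.act_sg_q hx]
      simp [ev, hψ, (hx S.i S.notMem).2])
    rw [S.act_sg_q hx] at hfin
    rw [S.inr_eq v3, hv3, ← B_act (π L), map_inv, act_act_inv, hLe, B_add_right, hev2, hfv2,
      B_ev_right, B_fv_right, hψ1, hBx, hφ1]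
    intro h0
    apply hfin
    simp only [Pi.add_apply, Pi.smul_apply, smul_eq_mul, B_ev_right, hψ, (hx S.i S.notMem).1]
    simp only [ev, Pi.single_eq_same]
    linear_combination -h0
  have hp2 : act (π ((S.q0 x)⁻¹ * τ⁻¹)) v = v2 := by rw [map_mul, act_mul, ← hv1, ← hv2]
  have hp3 : act (π (L⁻¹ * ((S.q0 x)⁻¹ * τ⁻¹))) v = v3 := by rw [map_mul, act_mul, hp2, ← hv3]
  have hc3 := (h1.comp S h2).comp S (g := L⁻¹) (by rw [hp2]; exact h3)
  have hc4 := hc3.comp S (g := S.q x) (S.eqv_R_inr hF (S.q_mem_R x) hc3.1.1 (by rw [hp3]; exact hψ3))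
  rw [hqeq]
  exact hc4.comp S (S.eqv_A hL hc4.1)

theorem eqv_R {r : Γ} (hr : r ∈ S.R) {v : Vec m F} (hv : S.D v) (hrv : S.D (act (π r) v)) : S.Eqv r v := by
  by_cases hψ : v (.inr S.i) = 0
  swap
  · exact S.eqv_R_inr hF hr hv.1 hψ
  obtain ⟨x, hx, u, hu, s, hs, rfl⟩ := S.R_form hF hr
  have h1 := S.eqv_T1 hs hv
  have h2 := S.eqv_A hu.1 h1.1
  have h12 := h1.comp S h2
  have hψ2 : act (π (u * s)) v (.inr S.i) = 0 := by
    have he : act (π (u * s)) S.e = S.e := by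
      rw [map_mul, act_mul, S.T1_fix_e hs]; exact hu.2
    rw [← hψ, S.inr_eq (act (π (u * s)) v), S.inr_eq v]
    nth_rewrite 1 [← he]
    rw [B_act]
  rw [mul_assoc] at hrv ⊢
  exact h12.comp S (S.eqv_q hF hx h12.1 hψ2 (by rwa [← act_mul, ← map_mul]))

omit hF in
theorem exists_RD {v : Vec m F} (hv : Supp S.I v) (hv0 : v ≠ 0) : ∃ r ∈ S.R, S.D (act (π r) v) := by
  by_cases hpr : S.pr v = 0
  · have hv1 := S.supp_I1_of_pr hv hpr
    obtain ⟨x, hx, h1⟩ := exists_partner_supp hv1 hv0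
    refine ⟨S.q x, S.q_mem_R x, act_supp (S.map_R_mem (S.q_mem_R x)).1 hv, S.pr_ne (Or.inl ?_)⟩
    rw [S.act_sg_q hx, h1, one_smul, B_eq_zero_symm (S.eB hv1), zero_smul, add_zero]
    simp [ev, (hv1 S.i S.notMem).1]
  · exact ⟨1, one_mem _, by rw [map_one, act_one]; exact ⟨hv, hpr⟩⟩

open scoped Classical in
/-- The coset of a vector. -/
noncomputable def cv (v : Vec m F) : Γ ⧸ S.R :=
  if h : ∃ r ∈ S.R, S.D (act (π r) v) then h.choose⁻¹ • S.c0 (act (π h.choose) v) else ((1 : Γ) : Γ ⧸ S.R)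

theorem cv_eq {v : Vec m F} {r : Γ} (hr : r ∈ S.R) (hrv : S.D (act (π r) v)) :
    S.cv v = r⁻¹ • S.c0 (act (π r) v) := by
  have h : ∃ r ∈ S.R, S.D (act (π r) v) := ⟨r, hr, hrv⟩
  rw [cv, dif_pos h]
  have he : act (π (r * h.choose⁻¹)) (act (π h.choose) v) = act (π r) v := by
    rw [map_mul, map_inv, act_mul, act_inv_act]
  have hq := S.eqv_R hF (mul_mem hr (inv_mem h.choose_spec.1)) h.choose_spec.2 (by rw [he]; exact hrv)
  rw [Eqv, he] at hq
  rw [hq.2, smul_smul, inv_mul_cancel_left]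

theorem cv_D {v : Vec m F} (hv : S.D v) : S.cv v = S.c0 v := by
  rw [S.cv_eq hF (one_mem _) (by rwa [map_one, act_one]), map_one, act_one, inv_one, one_smul]

theorem cv_R {r : Γ} (hr : r ∈ S.R) {v : Vec m F} (hv : Supp S.I v) (hv0 : v ≠ 0) :
    S.cv (act (π r) v) = r • S.cv v := by
  obtain ⟨r0, hr0, hD⟩ := S.exists_RD hv hv0
  rw [S.cv_eq hF (v := act (π r) v) (r := r0 * r⁻¹) (mul_mem hr0 (inv_mem hr))
    (by rwa [map_mul, map_inv, act_mul, act_inv_act]),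
    S.cv_eq hF hr0 hD, map_mul, map_inv, act_mul, act_inv_act, smul_smul, mul_inv_rev, inv_inv]

theorem cv_A_fix {h : Γ} (hh : h ∈ Am.A S.i) {v : Vec m F} (hv : Supp S.I v) (hv0 : v ≠ 0)
    (hpr : S.pr v = 0) : h • S.cv v = S.cv v := by
  have hv1 := S.supp_I1_of_pr hv hpr
  have hfixA : ∀ {k : Γ}, k ∈ Am.A S.i → act (π k) v = v := fun hk => act_fix (Am.map_A_mem hk) hv1 S.disj
  have hU : ∀ u ∈ Am.U S.i, u • S.cv v = S.cv v := fun u hu => by
    rw [← S.cv_R hF (S.U_le_R hu) hv hv0, hfixA hu.1]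
  have hL : ∀ (r : F) (L : Γ), L ∈ Am.A S.i → π L = transv S.f (-r) → L • S.cv v = S.cv v := by
    intro r L hL hπL
    obtain ⟨p, hp, hp1⟩ := exists_partner_supp hv1 hv0
    set x := -p with hxdef
    have hx : Supp S.I1 x := hp.neg
    obtain ⟨τ, hτ, hπτ, hid⟩ := S.split_q r hL hπL hx
    set u := v + S.e with hudef
    have hus : Supp S.I u := hv.add (supp_ev S.mem_i)
    have hu1 : u (.inl S.i) = 1 := by simp [u, ev, (hv1 S.i S.notMem).1]
    have huD : S.D u := ⟨hus, S.pr_ne (Or.inl (by simp [hu1]))⟩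
    have hqu : act (π (S.q x)) u = v := by
      rw [S.act_sg_q hx, hudef]
      simp [hxdef, hp1, S.eB hp, B_eq_zero_symm (S.eB hv1)]
    have hcv : S.cv v = S.q x • S.c0 u := by
      rw [← hqu, S.cv_R hF (S.q_mem_R x) hus (fun h => by simp [h] at hu1), S.cv_D hF huD]
    have h1 := S.eqv_A hL huD
    set u1 := act (π L) u with hu1'
    have hLf : act (π L) S.f = S.f := by rw [hπL]; exact act_transv_of_orth _ (B_self _)
    have hφ1 : u1 (.inl S.i) = 1 := by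
      rw [← hu1, S.inl_eq u1, S.inl_eq u, hu1']
      nth_rewrite 1 [← hLf]
      rw [B_act]
    have h2 := h1.comp S (S.eqv_R0 hF (S.q_mem_R (r • x)) h1.1.1 (hφ1.trans_ne one_ne_zero))
    have h3 := h2.comp S (S.eqv_T1 hτ h2.1)
    have he : S.q x * (τ * (S.w0 * S.q (r • x) * S.w0⁻¹ * L)) = L * S.q x := by
      rw [← mul_assoc, ← mul_assoc, show S.w0 * S.q (r • x) * S.w0⁻¹ = S.q0 (r • x) from rfl, ← hid]
      group
    have h4 := S.cv_R hF (S.q_mem_R x) h3.1.1 (fun h0 => h3.1.2 (by rw [h0]; simp [pr]))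
    rw [S.cv_D hF h3.1, h3.2, smul_smul, ← act_mul, ← map_mul, he, map_mul, act_mul, hqu, hfixA hL] at h4
    conv_lhs => rw [hcv]
    rw [smul_smul]
    exact h4.symm
  have hkey : ∀ k ∈ Am.A S.i, act (π k) S.e (.inr S.i) ≠ 0 → k • S.cv v = S.cv v := by
    intro k hk hδ
    set δ := act (π k) S.e (.inr S.i) with hδdef
    set γ := act (π k) S.e (.inl S.i) with hγdef
    obtain ⟨L, hLA, hπL⟩ := Am.exists_A (transv_mem_GI (supp_fv (Set.mem_singleton S.i)) (-δ))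
    obtain ⟨u, hu, hπu⟩ := S.exists_U ((γ - 1) / δ)
    have hke : act (π k) S.e = γ • S.e + δ • S.f := by
      have hs : Supp {S.i} (act (π k) S.e) := act_supp (Am.map_A_mem hk) (supp_ev (Set.mem_singleton _))
      have := S.pr_eq hs Supp.zero
      rw [add_zero] at this
      exact this.symm
    have hule : act (π (u * L)) S.e = act (π k) S.e := by
      rw [hke, map_mul, act_mul, hπL, act_transv, B_ev_fv, hπu, act_transv]
      simp only [B_add_left, B_smul_left, B_fv_ev, B_self]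
      rw [show -δ * -1 = δ by ring, mul_one, zero_add, div_mul_cancel₀ _ hδ]
      module
    have hu2 : (u * L)⁻¹ * k ∈ Am.U S.i :=
      ⟨(Am.A S.i).mul_mem ((Am.A S.i).inv_mem ((Am.A S.i).mul_mem hu.1 hLA)) hk,
        show act (π ((u * L)⁻¹ * k)) S.e = S.e by rw [map_mul, map_inv, act_mul]; exact act_inv_eq hule⟩
    rw [show k = u * (L * ((u * L)⁻¹ * k)) by group, mul_smul, mul_smul, hU _ hu2, hL δ L hLA hπL, hU u hu]
  by_cases hδ : act (π h) S.e (.inr S.i) = 0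
  · obtain ⟨L, hLA, hπL⟩ := Am.exists_A (transv_mem_GI (supp_fv (Set.mem_singleton S.i)) (-(1 : F)))
    have hs : Supp {S.i} (act (π h) S.e) := act_supp (Am.map_A_mem hh) (supp_ev (Set.mem_singleton _))
    have hne : act (π h) S.e (.inl S.i) ≠ 0 := by
      intro h0
      have := S.pr_eq hs Supp.zero
      simp only [add_zero, pr, h0, hδ, zero_smul] at this
      have := act_inv_eq this.symm
      rw [act_zero] at this
      exact ev_ne_zero S.i this.symm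
    have hk := hkey (L * h) (mul_mem hLA hh) (by
      rw [map_mul, act_mul, hπL, act_transv, B_fv_right]
      simp [fv, hδ, hne])
    have hL1 := hL 1 L hLA hπL
    rw [mul_smul] at hk
    exact smul_left_cancel L (hk.trans hL1.symm)
  · exact hkey h hh hδ

/-- The subgroup of equivariant elements. -/
noncomputable def EqG : Subgroup Γ where
  carrier := {g | π g ∈ GI S.I ∧ ∀ v, Supp S.I v → v ≠ 0 → S.cv (act (π g) v) = g • S.cv v}
  one_mem' := ⟨by rw [map_one]; exact one_mem _, fun v _ _ => by rw [map_one, act_one, one_smul]⟩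
  mul_mem' := fun {g h} hg hh => ⟨by rw [map_mul]; exact mul_mem hg.1 hh.1, fun v hv hv0 => by
    rw [map_mul, act_mul, hg.2 _ (act_supp hh.1 hv) (fun h0 => hv0 (by
      have := act_inv_eq h0; rw [act_zero] at this; exact this.symm)), hh.2 v hv hv0, mul_smul]⟩
  inv_mem' := fun {g} hg => ⟨by rw [map_inv]; exact inv_mem hg.1, fun v hv hv0 => by
    have hw : Supp S.I (act (π g⁻¹) v) := act_supp (by rw [map_inv]; exact inv_mem hg.1) hv
    have := hg.2 _ hw (fun h0 => hv0 (by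
      rw [map_inv] at h0; rw [← act_act_inv (π g) v, h0, act_zero]))
    rw [map_inv, act_act_inv] at this
    rw [map_inv, this, inv_smul_smul]⟩

theorem T_le_EqG : Am.T S.i S.b ≤ S.EqG := by
  have hR : S.R ≤ S.EqG := fun r hr => ⟨(S.map_R_mem hr).1, fun v hv hv0 => S.cv_R hF hr hv hv0⟩
  have hA : Am.A S.i ≤ S.EqG := fun k hk => ⟨S.map_A_I hk, fun v hv hv0 => by
    by_cases hpr : S.pr v = 0
    · rw [act_fix (Am.map_A_mem hk) (S.supp_I1_of_pr hv hpr) S.disj, S.cv_A_fix hF hk hv hv0 hpr]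
    · rw [S.cv_D hF ⟨hv, hpr⟩, S.cv_D hF (S.eqv_A hk ⟨hv, hpr⟩).1, (S.eqv_A hk ⟨hv, hpr⟩).2]⟩
  refine Am.T_le (fun k h1 h2 => ?_) fun k h1 h2 => ?_
  · by_cases hk : k = S.i
    · subst hk; exact hA
    · refine le_trans (le_trans (Am.A_le_T (a := S.j) (b := S.b) ⟨?_, h2⟩) S.T1_le_R) hR
      have := S.hij; simp only [Fin.ext_iff] at hk; omega
  · by_cases hk : k = S.i
    · subst hk; exact S.C_le_R.trans hR
    · refine le_trans (le_trans (Am.C_le_T (a := S.j) (b := S.b) ⟨?_, h2⟩) S.T1_le_R) hR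
      have := S.hij; simp only [Fin.ext_iff] at hk; omega

theorem mem_R_of_fix {g : Γ} (hg : g ∈ Am.T S.i S.b) (he : act (π g) S.e = S.e) : g ∈ S.R := by
  have h := (S.T_le_EqG hF hg).2 S.e (supp_ev S.mem_i) (ev_ne_zero _)
  rw [he, S.cv_D hF S.D_e, S.c0_e, MulAction.Quotient.smul_coe, QuotientGroup.eq] at h
  simpa using h

omit hF in
theorem R_le_T : S.R ≤ Am.T S.i S.b := by
  have h1 := S.hij
  have h2 := S.hjb
  rw [S.R_eq]
  refine sup_le (sup_le (inf_le_left.trans (Am.A_le_T ⟨le_rfl, by omega⟩)) (Am.C_le_T ⟨le_rfl, by omega⟩))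
    (Am.T_le (fun k a b => Am.A_le_T ⟨by omega, b⟩) fun k a b => Am.C_le_T ⟨by omega, b⟩)

/-- The induction step. -/
theorem good : Am.Good S.i S.b where
  inj g hg h1 := S.inj_R hF g (S.mem_R_of_fix hF hg (by rw [h1, act_one])) h1
  stab g hg he := S.mem_R_of_fix hF hg he
  map := by
    refine le_antisymm (Subgroup.map_le_iff_le_comap.2 fun g hg => (S.T_le_EqG hF hg).1) fun g hg => ?_
    set v := act g S.e with hv
    have hvs : Supp S.I v := act_supp hg (supp_ev S.mem_i)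
    have hv0 : v ≠ 0 := fun h0 => ev_ne_zero S.i (by
      have := act_inv_eq (hv.symm.trans h0); rw [act_zero] at this; exact this.symm)
    obtain ⟨r, hr, hD⟩ := S.exists_RD hvs hv0
    obtain ⟨k, hk, hke⟩ := S.exists_k hD
    set w := act (π r) v with hw
    set a := r⁻¹ * k * S.Nn (w - S.pr w) with ha
    have hxs := S.supp_rest hD.1
    have hA : Am.A S.i ≤ Am.T S.i S.b := Am.A_le_T ⟨le_rfl, by have := S.hij; have := S.hjb; omega⟩
    have haT : a ∈ Am.T S.i S.b :=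
      mul_mem (mul_mem (inv_mem (S.R_le_T hr)) (hA hk))
        (mul_mem (mul_mem (hA S.w0_mem) (S.R_le_T (S.q_mem_R _))) (inv_mem (hA S.w0_mem)))
    have hae : act (π a) S.e = v := by
      rw [ha, map_mul, map_mul, map_inv, act_mul, act_mul, S.act_Nn hxs, act_add, hke,
        act_fix (Am.map_A_mem hk) hxs S.disj, add_sub_cancel]
      exact act_inv_eq hw.symm
    have hrest : (π a)⁻¹ * g ∈ GI S.I := mul_mem (inv_mem (S.T_le_EqG hF haT).1) hg
    obtain ⟨r', hr', hπ⟩ := S.exists_R hrest (by rw [act_mul, ← hv]; exact act_inv_eq hae)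
    exact ⟨a * r', mul_mem haT (S.R_le_T hr'), by rw [map_mul, hπ, mul_inv_cancel_left]⟩

end Step

namespace Amal

/-- The base of the induction. -/
theorem good_one (Am : Amal π) (i : Fin m) : Am.Good i ((i : ℕ) + 1) := by
  have hT : Am.T i ((i : ℕ) + 1) = Am.A i := by
    refine le_antisymm (Am.T_le (fun k h1 h2 => ?_) fun k h1 h2 => absurd h1 (by omega))
      (Am.A_le_T ⟨le_rfl, by omega⟩)
    rw [show k = i from Fin.ext (by omega)]
  refine ⟨?_, ?_, ?_⟩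
  · rw [hT]; exact (Am.injAA i i).mono le_sup_left
  · rw [hT, Am.mapA]
    congr 1
    ext k
    simp only [Iv, Set.mem_singleton_iff, Set.mem_ofPred_eq, Fin.ext_iff]
    omega
  · intro g hg he
    rw [hT] at hg
    exact Subgroup.mem_sup_left (Subgroup.mem_sup_left ⟨hg, he⟩)

theorem good_all (Am : Amal π) (hF : ∃ a : F, a ≠ 0 ∧ a ≠ 1) (d : ℕ) :
    ∀ (i : Fin m) (b : ℕ), b = (i : ℕ) + 1 + d → b ≤ m → Am.Good i b := by
  induction d with
  | zero => exact fun i b hb _ => hb ▸ Am.good_one i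
  | succ d ih =>
    intro i b hb hbm
    exact (Step.mk i ⟨(i : ℕ) + 1, by omega⟩ b rfl (show (i : ℕ) + 1 < b by omega) hbm
      (ih _ b (show b = (i : ℕ) + 1 + 1 + d by omega) hbm)).good hF

end Amal

end Cfsg.Agent.H78.SpSlim
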